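import Mathlib
import Cfsg.Agent.H23.Fpf4

/-!
# Cyclic `2`-groups acting on extraspecial-like groups: eigenvalue lemmas
-/

set_option autoImplicit false

namespace Cfsg.Agent.Gross

open Module Cfsg.Agent.BG Cfsg.Agent.BG.Amb Cfsg.Agent.BG.RepGlue Cfsg.Agent.BG.RepWeight
  Cfsg.Agent.BG.RepFrob Cfsg.Agent.BG.RepExtra Cfsg.Agent.BG.RepPrime Cfsg.Agent.H23.HH
open scoped commutatorElement Pointwise
open Subgroup (zpowers)

theorem arith_two {ι : Type*} [Fintype ι] (n : ι → ℕ) (N c : ℕ) (hh : Fintype.card ι = N + 1)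
    (hN : ∑ i, n i = N) (hc : ∑ i, n i ^ 2 ≤ c) (heq : N ^ 2 + (N + 1) = (N + 1) * c + 1)
    {i j : ι} (hi : n i = 0) (hj : n j = 0) : i = j := by
  classical
  by_contra hij
  have h1 : c = N := Nat.eq_of_mul_eq_mul_left (Nat.succ_pos N) (by nlinarith)
  subst h1
  have h2 : ∀ t, n t ≤ 1 := by
    intro t
    by_contra ht
    have : ∑ i, n i < ∑ i, n i ^ 2 := Finset.sum_lt_sum (fun i _ => Nat.le_self_pow two_ne_zero _)
      ⟨t, Finset.mem_univ t, by nlinarith⟩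
    omega
  have h3 : ∑ t, n t ≤ ((Finset.univ.erase i).erase j).card := by
    rw [← Finset.sum_erase (a := i) _ hi, ← Finset.sum_erase (a := j) _ hj]
    simpa using Finset.sum_le_card_nsmul _ _ 1 fun t _ => h2 t
  rw [Finset.card_erase_of_mem (by simp [Ne.symm hij]), Finset.card_erase_of_mem (by simp),
    Finset.card_univ, hh] at h3
  have : 2 ≤ Fintype.card ι := Fintype.one_lt_card_iff.2 ⟨i, j, hij⟩
  omega

variable {k G W : Type*} [Field k] [Group G] [AddCommGroup W] [Module k W]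
  [IsAlgClosed k] [Finite G] [FiniteDimensional k W]

theorem core_two [Nontrivial W] (ρ : Representation k G W) (P Z H : Subgroup G)
    (hPZ : P ≤ 𝐍(Z)) (hHP : H ≤ 𝐍(P)) [IsMulCommutative H]
    (hZscal : ∀ z ∈ Z, ∃ c : k, ρ z = c • 1) (hcommZ : ∀ a ∈ P, ∀ b ∈ P, ⁅a, b⁆ ∈ Z)
    (hnd : ∀ g ∈ P, (∀ y ∈ P, ρ y * ρ g = ρ g * ρ y) → g ∈ Z)
    (hfree : ∀ e ∈ H, e ≠ 1 → ∀ a ∈ P, ∃ b ∈ P, ∃ z ∈ Z, a = b⁻¹ * (e⁻¹ * b * e) * z)
    (hP : (Nat.card P : k) ≠ 0) (hH : (Nat.card H : k) ≠ 0)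
    (hcop : (Nat.card H).Coprime (Z.relIndex P))
    (hirr : ∀ U : Submodule k W, (∀ g ∈ P, ∀ v ∈ U, ρ g v ∈ U) → (∀ g ∈ H, ∀ v ∈ U, ρ g v ∈ U) →
      U = ⊥ ∨ U = ⊤) (hN : 2 ≤ finrank k W) {μ ν : H →* kˣ} (hμ : wt ρ H μ = ⊥)
    (hν : wt ρ H ν = ⊥) : μ = ν := by
  classical
  have := Fintype.ofFinite (H →* kˣ)
  have hcomm : ∀ a ∈ P, ∀ b ∈ P, conjRep ρ a * conjRep ρ b = conjRep ρ b * conjRep ρ a := by
    intro a ha b hb
    rw [← map_mul, ← map_mul, show a * b = ⁅a, b⁆ * (b * a) by rw [commutatorElement_def]; group,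
      map_mul, conjRep_scalar ρ (hZscal _ (hcommZ a ha b hb)), one_mul]
  have h1 := weight_formula (conjRep ρ) P H hHP hP hcomm (fun e he he1 a ha => by
    obtain ⟨b, hb, z, hz, hab⟩ := hfree e he he1 a ha
    refine ⟨b, hb, ?_⟩
    rw [hab, map_mul, conjRep_scalar ρ (hZscal z hz), mul_one])
  have h2 : fixSub (conjRep ρ) H ⊓ fixSub (conjRep ρ) P = Submodule.span k {1} := by
    apply le_antisymm
    · rintro f ⟨hfH, hfP⟩
      rw [SetLike.mem_coe, mem_fixSub_conjRep] at hfH hfP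
      obtain ⟨c, hc⟩ := exists_scalar ((fun g => ρ g) '' ((P : Set G) ∪ H)) ⊤ top_ne_bot
        (fun _ _ _ _ => Submodule.mem_top)
        (fun N _ hN => hirr N (fun g hg => hN _ ⟨g, Or.inl hg, rfl⟩)
          (fun g hg => hN _ ⟨g, Or.inr hg, rfl⟩)) f (fun _ _ => Submodule.mem_top) (by
          rintro _ ⟨g, hg, rfl⟩ v _
          rw [← Module.End.mul_apply, ← Module.End.mul_apply, hg.elim (hfP g) (hfH g)])
      rw [Submodule.mem_span_singleton]
      exact ⟨c, LinearMap.ext fun v => (hc v Submodule.mem_top).symm⟩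
    · rw [Submodule.span_le, Set.singleton_subset_iff]
      exact ⟨mem_fixSub_conjRep.2 (by simp), mem_fixSub_conjRep.2 (by simp)⟩
  rw [h2, finrank_span_singleton one_ne_zero, mul_one, Module.finrank_linearMap, ← sq] at h1
  have h3 := finrank_sq_eq ρ P Z hPZ hZscal hcommZ hnd hP
  obtain ⟨π, hπ⟩ := exists_isWtProj ρ H hH (fun a ha b hb => by
    rw [← map_mul, ← map_mul, setLike_mul_comm ha hb])
  have hd : 1 ≤ finrank k (fixSub (conjRep ρ) P) := by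
    rw [Nat.one_le_iff_ne_zero]
    intro h
    rw [h, mul_zero] at h3
    exact (Module.finrank_pos (R := k) (M := W)).ne' (pow_eq_zero_iff two_ne_zero |>.1 h3)
  have hc : Fintype.card (H →* kˣ) = Nat.card H := by
    rw [← Nat.card_eq_fintype_card, card_monoidHom H hH]
  obtain ⟨e1, -, e3⟩ := arith (fun μ => finrank k (wt ρ H μ)) _ (Nat.card H) _ _ _
    hc hπ.sum_finrank (sum_sq_le_finrank hπ) h1 hd h3 hcop
  have e4 := (e3 μ (by rw [hμ, finrank_bot])).resolve_left (by omega)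
  rw [e1, e4] at h1
  exact arith_two (fun μ => finrank k (wt ρ H μ)) _ _ (hc.trans e4) hπ.sum_finrank
    (sum_sq_le_finrank hπ) h1 (by rw [hμ, finrank_bot]) (by rw [hν, finrank_bot])

variable {ρ : Representation k G W}

theorem loc_wt {P Z H : Subgroup G} {U : Submodule k W} (h : Loc ρ P Z H U) [IsMulCommutative H]
    (hH : (Nat.card H : k) ≠ 0) (hcop : (Nat.card P).Coprime (Nat.card H))
    (hfix : fixSub ρ H = ⊥) {μ : H →* kˣ} (hμ : μ ≠ 1) : ∃ v ∈ U, v ≠ 0 ∧ v ∈ wt ρ H μ := by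
  by_contra hc
  push Not at hc
  have h' := h.res
  have hPL : P ≤ stabU ρ U := le_stabU.2 h.invP
  have hHL : H ≤ stabU ρ U := le_stabU.2 h.invH
  have : Nontrivial U := Submodule.nontrivial_iff_ne_bot.2 h.ne
  have e1 := Core.card_subgroupOf_of_le hHL
  have e2 : (Z.subgroupOf (stabU ρ U)).relIndex (P.subgroupOf (stabU ρ U)) = Z.relIndex P :=
    Subgroup.relIndex_subgroupOf hPL
  let e := Subgroup.subgroupOfEquivOfLe hHL
  have key : ∀ ν : H →* kˣ, (∀ v ∈ U, v ≠ 0 → v ∉ wt ρ H ν) →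
      wt (resU ρ U) (H.subgroupOf (stabU ρ U)) (ν.comp e.toMonoidHom) = ⊥ := by
    intro ν hν
    rw [eq_bot_iff]
    intro v hv
    by_contra h0
    refine hν v v.2 (fun h1 => h0 (Subtype.ext h1)) (mem_wt.2 fun a => ?_)
    have := congrArg Subtype.val (mem_wt.1 hv (e.symm a))
    rw [show ν.comp e.toMonoidHom (e.symm a) = ν a by simp] at this
    exact this
  have := core_two (resU ρ U) _ _ _ h'.normZ h'.normP
    (fun z hz => (h'.scal z hz).imp fun c hc => LinearMap.ext fun v => hc v Submodule.mem_top)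
    h'.comm (fun g hg hc => h'.nd g hg fun y hy v _ => LinearMap.congr_fun (hc y hy) v) h'.free
    h'.card (e1 ▸ hH) (e1 ▸ e2 ▸ hcop.symm.coprime_dvd_right (Core.relIndex_dvd_card' Z P))
    (fun N h1 h2 => h'.irr N le_top h1 h2) h.two_le (key μ hc)
    (key 1 fun v _ h0 hv => h0 (by rwa [wt_one, hfix, Submodule.mem_bot] at hv))
  refine hμ (MonoidHom.ext fun a => ?_)
  simpa using DFunLike.congr_fun this (e.symm a)

/-- Operators commuting with `P` commute with `H`. -/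
theorem fix_commutant {P Z H : Subgroup G} [IsMulCommutative H] (hHP : H ≤ 𝐍(P))
    (hH : (Nat.card H : k) ≠ 0) (hcop : (Nat.card P).Coprime (Nat.card H))
    (hfix : fixSub ρ H = ⊥)
    (hloc : ∀ U₀ : Submodule k W, U₀ ≠ ⊥ → (∀ g ∈ P, ∀ v ∈ U₀, ρ g v ∈ U₀) →
      (∀ g ∈ H, ∀ v ∈ U₀, ρ g v ∈ U₀) → ∃ U ≤ U₀, Loc ρ P Z H U) :
    fixSub (conjRep ρ) P ≤ fixSub (conjRep ρ) H := by
  intro T hT b hb
  by_contra hne
  obtain ⟨μ, hμ, S, hS, hS0, hSμ⟩ := exists_wt_not_mem (ρ := conjRep ρ) hH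
    (fixSub (conjRep ρ) P) (fun a ha v hv => apply_mem_fixSub _ (hHP ha) hv)
    (fun a ha b hb v _ => by
      rw [← Module.End.mul_apply, ← Module.End.mul_apply, ← map_mul, ← map_mul,
        setLike_mul_comm ha hb]) hb hT hne
  rw [mem_wt_conjRep] at hSμ
  rw [mem_fixSub_conjRep] at hS
  obtain ⟨U, hU, hl⟩ := hloc (LinearMap.range S) (fun h => hS0 (LinearMap.range_eq_bot.1 h))
    (by
      rintro g hg _ ⟨w, rfl⟩
      exact ⟨ρ g w, by rw [← Module.End.mul_apply, ← hS g hg, Module.End.mul_apply]⟩)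
    (by
      rintro g hg _ ⟨w, rfl⟩
      refine ⟨(μ ⟨g, hg⟩ : k) • ρ g w, ?_⟩
      rw [← Module.End.mul_apply, hSμ ⟨g, hg⟩, map_smul]; rfl)
  obtain ⟨v, hv, hv0, hvμ⟩ := loc_wt hl hH hcop hfix (μ := μ) (by
    rintro rfl; exact hμ ((mem_kerG hb).2 rfl))
  obtain ⟨w, rfl⟩ := hU hv
  have h1 : S (nm ρ H w) = (Nat.card H : k) • S w := by
    rw [nm_apply, map_sum, ← card_els, Nat.cast_smul_eq_nsmul, ← Finset.sum_const]
    refine Finset.sum_congr rfl fun g hg => ?_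
    have hg' := mem_els.1 hg
    have h2 := LinearMap.congr_fun (hSμ ⟨g, hg'⟩) w
    have h3 := mem_wt.1 hvμ ⟨g, hg'⟩
    simp only [Module.End.mul_apply, LinearMap.smul_apply] at h2
    rw [h3] at h2
    exact (smul_right_injective W (Units.ne_zero _) h2).symm
  rw [nm_eq_zero hfix, map_zero] at h1
  exact hv0 ((smul_eq_zero.1 h1.symm).resolve_left hH)

/-- The second layer: `τ`-fixed vectors are negated by `b`. -/
theorem layer_faithful {P : Subgroup G} {s κ : ℕ} (hs : s.Prime) (hs2 : s ≠ 2) (hP : IsPGroup s P)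
    {b : G} (hb : b ^ 2 ^ (κ + 1) = 1) (hbP : b ∈ 𝐍(P))
    (hτ : ¬ P ≤ 𝐂(zpowers (b ^ 2 ^ κ))) (hks : (s : k) ≠ 0) (hk2 : (2 : k) ≠ 0)
    (hρ : ∀ g, ρ g = 1 → g = 1) (h : ∀ v, ρ (b ^ 2 ^ κ) v = v → ρ b v = -v) :
    ∃ m, 1 ≤ m ∧ 2 ^ (κ + 1) = s ^ m + 1 := by
  haveI := Fact.mk hs
  haveI : Fact (Nat.Prime 2) := ⟨Nat.prime_two⟩
  have hx : orderOf b = 2 ^ (κ + 1) := orderOf_eq_prime_pow
    (fun h => hτ (by rw [h, Subgroup.zpowers_one_eq_bot, cent_bot]; exact le_top)) hb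
  have hcard := card_omega Nat.prime_two hx (Nat.le_add_left 1 κ)
  rw [Nat.add_sub_cancel] at hcard
  obtain ⟨a, ha⟩ := IsPGroup.iff_card.1 hP
  have hcop : (Nat.card P).Coprime 2 := by
    rw [ha]; exact ((Nat.coprime_primes hs Nat.prime_two).2 hs2).pow_left a
  obtain ⟨Q, hQP, hmin⟩ := exists_minAct (Subgroup.zpowers_le.2 hbP) (zpowers_pow_le b (2 ^ κ))
    (zpowers_norm_pow b _) (by rw [hcard]; exact hcop) (solvable_of_isPGroup hP) hτ
  have hQ : IsPGroup s Q := hP.to_le hQP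
  have hkQ : (Nat.card Q : k) ≠ 0 := cast_card_ne_zero_of_le hQP (by
    rw [ha, Nat.cast_pow]; exact pow_ne_zero _ hks)
  have hkb : (Nat.card (zpowers b) : k) ≠ 0 := by
    rw [Nat.card_zpowers, hx, Nat.cast_pow]; exact pow_ne_zero _ hk2
  have hfix : fixSub ρ (zpowers b) = ⊥ := by
    rw [eq_bot_iff]
    intro v hv
    have h1 := h v (hv _ (Subgroup.npow_mem_zpowers b _))
    rw [hv b (Subgroup.mem_zpowers b), eq_neg_iff_add_eq_zero, ← two_smul k] at h1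
    exact (smul_eq_zero.1 h1).resolve_left hk2
  obtain ⟨g, hg, hg1⟩ := exists_mem_ne_one hmin.ne_bot
  obtain ⟨l, j, m, hj, hm, hl, hwt, hst, -, h2⟩ := MinAct.hh_cop (n := κ + 1) Nat.prime_two hx
    (Nat.le_add_left 1 κ) hmin (Subgroup.mem_zpowers b) hs hQ hkQ hkb
    ⟨g, hg, fun h => hg1 (hρ g h)⟩ hfix
  rcases Nat.eq_zero_or_pos j with rfl | hj0
  · exact ⟨m, hm, h2⟩
  exfalso
  change ↥(Q ⊓ 𝐂(zpowers (b ^ 2 ^ κ))) →* kˣ at l
  have hbl : b ∉ stab l := fun hbl => by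
    have : b ^ 1 ∈ zpowers (b ^ 2 ^ j) := by
      rw [← hst, pow_one]; exact ⟨Subgroup.mem_zpowers b, hbl⟩
    have := Nat.le_of_dvd one_pos (dvd_of_pow_mem hx hj.le this)
    have := Nat.one_lt_two_pow hj0.ne'
    omega
  have hY : zpowers (b ^ 2 ^ κ) ≤ stab l := by
    refine le_trans ?_ (hst.ge.trans inf_le_right)
    obtain ⟨t, rfl⟩ : ∃ t, κ = j + t := ⟨κ - j, by omega⟩
    rw [pow_add, pow_mul]
    exact zpowers_pow_le _ _
  have hkY : (Nat.card (zpowers (b ^ 2 ^ κ)) : k) ≠ 0 := by rw [hcard]; exact_mod_cast hk2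
  have hnm : ∀ v ∈ wt ρ _ l, nm ρ (zpowers (b ^ 2 ^ κ)) v = 0 := by
    intro v hv
    by_contra h0
    have h1 : nm ρ (zpowers (b ^ 2 ^ κ)) v ∈ wt ρ _ l :=
      nm_mem (fun g hg v hv => apply_mem_wt_of_stab (hY hg) hv) hv
    have h2 := h _ (nm_mem_fixSub (ρ := ρ) v _ (Subgroup.mem_zpowers _))
    have hbD := hmin.normD (Subgroup.mem_zpowers b)
    have h3 := apply_mem_wt ⟨b, hbD⟩ h1
    change ρ b _ ∈ _ at h3
    rw [h2] at h3
    exact hbl ((mem_stab hbD).2 (eq_of_mem_wt ((neg_mem_iff).1 h3) h1 h0))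
  obtain ⟨U, hU, hloc⟩ := es_local inf_le_left hmin.der_le hmin.D_le_cent hmin.normQ le_rfl
    (le_zpowers_of_prime (by rw [hcard]; exact Nat.prime_two)) hmin.cop hmin.sol le_rfl hkQ hY hwt le_rfl
    (fun g hg v hv => apply_mem_wt_of_stab
      (cent_le_stab l (le_cent_symm hmin.D_le_cent hg)) hv)
    (fun g hg v hv => apply_mem_wt_of_stab (hY hg) hv) hnm hl
  have h3 := (hloc.cop' hkY hmin.cop fun v hv => hnm v (hU hv)).2
  have h4 := hloc.two_le
  omega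

end Cfsg.Agent.Gross
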