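import Mathlib
import Cfsg.Agent.Gross.A

/-!
# Gross's theorem: fixed-point-free automorphisms of order `2 ^ n`
-/

set_option autoImplicit false

namespace Cfsg.Agent.Gross

open Module Cfsg.Agent.BG Cfsg.Agent.BG.Amb Cfsg.Agent.BG.RepGlue Cfsg.Agent.BG.RepWeight
  Cfsg.Agent.BG.RepFrob Cfsg.Agent.BG.RepExtra Cfsg.Agent.BG.RepPrime Cfsg.Agent.H23.HH
open scoped commutatorElement Pointwise
open Subgroup (zpowers)

universe u

variable {k G W : Type*} [Field k] [Group G] [AddCommGroup W] [Module k W]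

theorem imQ_zpowers {ρ : Representation k G W} {U : Submodule k W} {x : G} (hx : x ∈ stabU ρ U) :
    imQ ρ U (zpowers x) = zpowers (QuotientGroup.mk' _ (⟨x, hx⟩ : stabU ρ U)) := by
  have e1 : (zpowers x).subgroupOf (stabU ρ U) = zpowers ⟨x, hx⟩ := by
    apply Subgroup.map_injective (stabU ρ U).subtype_injective
    rw [Subgroup.map_subgroupOf_eq_of_le (Subgroup.zpowers_le.2 hx), MonoidHom.map_zpowers]
    rfl
  rw [imQ, e1, MonoidHom.map_zpowers]

theorem isPGroup_imQ {ρ : Representation k G W} {U : Submodule k W} {p : ℕ} {A : Subgroup G}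
    (h : IsPGroup p A) : IsPGroup p (imQ ρ U A) :=
  (h.comap_of_injective (stabU ρ U).subtype (stabU ρ U).subtype_injective).map _

/-- Twisting a representation by a linear character. -/
def twist (ε : G →* kˣ) (ρ : Representation k G W) : Representation k G W where
  toFun g := (ε g : k) • ρ g
  map_one' := by simp
  map_mul' a b := by simp [mul_smul, smul_comm (ε a : k) (ε b : k)]

variable [IsAlgClosed k] [Finite G] [FiniteDimensional k W] {ρ : Representation k G W}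

theorem layer {P : Subgroup G} {s κ : ℕ} (hs : s.Prime) (hs2 : s ≠ 2) (hP : IsPGroup s P)
    {b : G} (hb : b ^ 2 ^ (κ + 1) = 1) (hκ : κ ≠ 0) [P.Normal] (htop : P ⊔ zpowers b = ⊤)
    (hτ : P ≤ ⁅P, zpowers (b ^ 2 ^ κ)⁆) (hks : (s : k) ≠ 0) (hk2 : (2 : k) ≠ 0)
    (hne : ∃ g ∈ P, ρ g ≠ 1) (h : fixSub ρ (zpowers (b ^ 2 ^ κ)) ≤ fixSub ρ (zpowers b)) :
    ∃ m, 1 ≤ m ∧ 2 ^ (κ + 1) = s ^ m + 1 := by
  haveI := Fact.mk hs
  obtain ⟨g, hg, hg1⟩ := hne
  let π := QuotientGroup.mk' P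
  have hgen : ∀ x : G ⧸ P, x ∈ zpowers (π b) := fun x => by
    have := map_sup_zpowers (QuotientGroup.mk'_surjective P) htop
    rw [(Subgroup.map_eq_bot_iff P).2 (QuotientGroup.ker_mk' P).ge, bot_sup_eq] at this
    exact this ▸ Subgroup.mem_top x
  have hord : orderOf (-1 : kˣ) ∣ orderOf (π b) := by
    refine (orderOf_dvd_of_pow_eq_one (n := 2) (by simp)).trans ?_
    obtain ⟨i, -, hi⟩ := (Nat.dvd_prime_pow Nat.prime_two).1
      (orderOf_dvd_of_pow_eq_one (show π b ^ 2 ^ (κ + 1) = 1 by rw [← map_pow, hb, map_one]))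
    rw [hi]
    refine dvd_pow_self 2 ?_
    rintro rfl
    have hbP : b ∈ P := (QuotientGroup.eq_one_iff b).1 (orderOf_eq_one_iff.1 hi)
    obtain ⟨a, ha⟩ := hP ⟨b, hbP⟩
    have hb1 : b = 1 := eq_one_of_pow_coprime
      (((Nat.coprime_primes hs Nat.prime_two).2 hs2).pow a (κ + 1)) (congrArg Subtype.val ha) hb
    rw [hb1, one_pow, Subgroup.zpowers_one_eq_bot, Subgroup.commutator_bot_right] at hτ
    exact hg1 (by rw [Subgroup.mem_bot.1 (hτ hg), map_one])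
  let ε : G →* kˣ := (monoidHomOfForallMemZpowers hgen hord).comp π
  have hεb : ε b = -1 := monoidHomOfForallMemZpowers_apply_gen hgen hord
  have hεP : ∀ g ∈ P, ε g = 1 := fun g hg => by
    change monoidHomOfForallMemZpowers hgen hord (π g) = 1
    rw [show π g = 1 from (QuotientGroup.eq_one_iff g).2 hg, map_one]
  have hετ : ε (b ^ 2 ^ κ) = 1 := by
    rw [map_pow, hεb]; exact Even.neg_one_pow (Nat.even_pow.2 ⟨even_two, hκ⟩)
  let σ := twist ε ρ
  have hst : ∀ A : Subgroup G, A ≤ stabU σ ⊤ := fun A =>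
    le_stabU.2 fun _ _ _ _ => Submodule.mem_top
  have hm : ∀ x : G, x ∈ stabU σ ⊤ := fun x => hst ⊤ (Subgroup.mem_top x)
  let b' := QuotientGroup.mk' (resU σ ⊤).ker ⟨b, hm b⟩
  have hb' : ∀ n, b' ^ n = QuotientGroup.mk' (resU σ ⊤).ker ⟨b ^ n, hm _⟩ := fun n => by
    rw [← map_pow]; rfl
  refine layer_faithful (ρ := resQ σ ⊤) (P := imQ σ ⊤ P) (b := b') hs hs2 (isPGroup_imQ hP)
    (by rw [hb']; simp only [hb]; exact map_one _) ?_ (fun hc => hg1 ?_) hks hk2 resQ_faithful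
    fun v hv => ?_
  · have := imQ_norm (ρ := σ) (U := ⊤) (Subgroup.le_normalizer_of_normal (H := P) (K := zpowers b))
    rw [imQ_zpowers (hm b)] at this
    exact this (Subgroup.mem_zpowers _)
  · rw [hb', ← imQ_zpowers, le_cent_iff_comm_eq_bot, ← imQ_comm (hst _) (hst _),
      imQ_eq_bot_iff (hst _)] at hc
    refine LinearMap.ext fun v => ?_
    have := mem_kerU.1 (hc (hτ hg)) v Submodule.mem_top
    change (ε g : k) • ρ g v = v at this
    rwa [hεP g hg, Units.val_one, one_smul] at this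
  · rw [hb'] at hv
    have h1 : (ε (b ^ 2 ^ κ) : k) • ρ (b ^ 2 ^ κ) v = v := congrArg Subtype.val hv
    rw [hετ, Units.val_one, one_smul] at h1
    have h2 : (v : W) ∈ fixSub ρ (zpowers (b ^ 2 ^ κ)) := by
      rw [Subgroup.zpowers_eq_closure, fixSub_closure]
      rintro _ rfl; exact h1
    refine Subtype.ext ?_
    change (ε b : k) • ρ b v = -v
    rw [hεb, h h2 b (Subgroup.mem_zpowers b)]; simp

theorem homog [Nontrivial W] {Q D P : Subgroup G} {q s κ : ℕ} (hq : q.Prime) (hs : s.Prime)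
    (hqs : q ≠ s) (hq2 : q ≠ 2) (hs2 : s ≠ 2) (hQ : IsPGroup q Q) (hP : IsPGroup s P) {b : G}
    (hb : b ^ 2 ^ (κ + 1) = 1) (hbP : b ∈ 𝐍(P)) (hbQ : b ∈ 𝐍(Q)) (hPQ : P ≤ 𝐍(Q))
    (hτ : P ≤ ⁅P, zpowers (b ^ 2 ^ κ)⁆) (hDQ : D ≤ Q) (hder : ⁅Q, Q⁆ ≤ D)
    (hpow : ∀ x ∈ Q, x ^ q ∈ D) (hCD : Q ⊓ 𝐂(P) ≤ D) (hD : ∀ z ∈ D, ∃ c : k, ρ z = c • 1)
    (hne : ⁅Q, Q⁆ ≠ ⊥) (hkq : (q : k) ≠ 0) (hk2 : (2 : k) ≠ 0) (hρ : ∀ g, ρ g = 1 → g = 1)
    (hfix : fixSub ρ (zpowers b) = ⊥) : False := by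
  haveI := Fact.mk hq
  haveI := Fact.mk hs
  haveI : Fact (Nat.Prime 2) := ⟨Nat.prime_two⟩
  set Y := zpowers (b ^ 2 ^ κ) with hY
  have hinj : ∀ x y, ρ x = ρ y → x = y := fun x y h => by
    have := hρ (x * y⁻¹) (by rw [map_mul, h, ← map_mul, mul_inv_cancel, map_one])
    exact mul_inv_eq_one.1 this
  have hDc : ∀ A : Subgroup G, D ≤ 𝐂(A) := fun A z hz g _ => by
    obtain ⟨c, hc⟩ := hD z hz
    exact hinj _ _ (by rw [map_mul, map_mul, hc]; simp)
  have hPnc : ¬ P ≤ 𝐂(Q) := fun h => hne (le_cent_iff_comm_eq_bot.1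
    (((le_inf le_rfl (le_cent_symm h)).trans hCD).trans (hDc Q)))
  have hB : zpowers b ≤ 𝐍(Q) := Subgroup.zpowers_le.2 hbQ
  have hYB : Y ≤ zpowers b := zpowers_pow_le b _
  have hYnc : ¬ Y ≤ 𝐂(Q) := fun h => hPnc (hτ.trans (comm_le_cent_of_norm hPQ h))
  have hx : orderOf b = 2 ^ (κ + 1) := orderOf_eq_prime_pow
    (fun h => hYnc (by rw [hY, h, Subgroup.zpowers_one_eq_bot]; exact bot_le)) hb
  have hω := omega_le Nat.prime_two hx (Nat.le_add_left 1 κ)
  obtain ⟨a, ha⟩ := IsPGroup.iff_card.1 hQ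
  have hkQ : (Nat.card Q : k) ≠ 0 := by rw [ha, Nat.cast_pow]; exact pow_ne_zero _ hkq
  have hcB : Nat.card (zpowers b) = 2 ^ (κ + 1) := by rw [Nat.card_zpowers, hx]
  have hkb : (Nat.card (zpowers b) : k) ≠ 0 := by
    rw [hcB, Nat.cast_pow]; exact pow_ne_zero _ hk2
  have hcop : (Nat.card Q).Coprime (Nat.card (zpowers b)) := by
    rw [ha, hcB]; exact ((Nat.coprime_primes hq Nat.prime_two).2 hq2).pow _ _
  have hcopY := Core.coprime_of_le_right hcop hYB
  have hsQ := solvable_of_isPGroup hQ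
  have hZ : Q ⊓ 𝐂(Q) ≤ D := by
    have h1 : ⁅Q ⊓ 𝐂(Q), Y⁆ = ⊥ := (Subgroup.eq_bot_iff_forall _).2 fun g hg => hρ g
      (LinearMap.ext fun v => comm_trivial (ρ := ρ) (U := ⊤)
        (cast_card_ne_zero_of_le inf_le_left hkQ) (le_norm_inf_cent hB hB) hω
        (fun _ _ _ _ => Submodule.mem_top) (fun x hx y hy v _ => by
          rw [← Module.End.mul_apply, ← Module.End.mul_apply, ← map_mul, ← map_mul,
            hy.2 x hx.1]) (fun v _ => nm_eq_zero hfix v) g hg v Submodule.mem_top)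
    exact (le_inf inf_le_left (le_cent_symm (hτ.trans (comm_le_cent_of_norm
      (le_norm_inf_cent hPQ hPQ) (le_cent_iff_comm_eq_bot'.2 h1))))).trans hCD
  set Q₁ : Subgroup G := ⁅Q, Y⁆ ⊔ D with hQ₁
  have hQ₁Q : Q₁ ≤ Q := sup_le (comm_le_left (hYB.trans hB)) hDQ
  have hBQ₁ : zpowers b ≤ 𝐍(Q₁) := le_norm_sup (le_norm_comm hB (zpowers_norm_pow b _))
    (le_norm_of_le_cent (le_cent_symm (hDc _)))
  have h12 : Q₁ ≤ 𝐂(Q ⊓ 𝐂(Y)) := sup_le (le_cent_iff_comm_eq_bot.2 (le_bot_iff.1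
    (comm_comm_cent_le le_norm_bot le_norm_bot
      (le_cent_iff_comm_eq_bot.1 (hder.trans (hDc Y))).le))) (hDc _)
  have hsup := coprime_comm_sup_cent (hYB.trans hB) hcopY (Or.inr hsQ)
  have hZ₁ : Q₁ ⊓ 𝐂(Q₁) ≤ D := by
    refine le_trans (le_inf (inf_le_left.trans hQ₁Q) ?_) hZ
    rw [← hsup]
    exact le_cent_sup (inf_le_right.trans (cent_anti le_sup_left)) (inf_le_left.trans h12)
  have hnle : ¬ Q₁ ≤ D := fun h => hYnc (coprime_le_cent_of_comm_le_cent (hYB.trans hB) hcopY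
    ((le_sup_left.trans h).trans (hDc Y)))
  have hder₁ : ⁅Q₁, Q₁⁆ ≤ D := (der_mono hQ₁Q).trans hder
  have hloc : ∀ U₀ : Submodule k W, U₀ ≠ ⊥ → (∀ g ∈ Q₁, ∀ v ∈ U₀, ρ g v ∈ U₀) →
      (∀ g ∈ zpowers b, ∀ v ∈ U₀, ρ g v ∈ U₀) → ∃ U ≤ U₀, Loc ρ Q₁ D (zpowers b) U := by
    intro U₀ h0 h1 h2
    obtain ⟨U, hU, hU0, hinv, hmin⟩ := exists_minimal_invariant
      ((fun g => ρ g) '' ((Q₁ : Set G) ∪ zpowers b)) U₀ h0 (by
        rintro _ ⟨g, hg, rfl⟩; exact hg.elim (h1 g) (h2 g))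
    refine ⟨U, hU, hU0, fun g hg => hinv _ ⟨g, .inl hg, rfl⟩, fun g hg => hinv _ ⟨g, .inr hg, rfl⟩,
      le_sup_right, hnle, le_norm_of_le_cent (le_cent_symm (hDc _)), hBQ₁, fun z hz => ?_,
      fun x hx y hy => hder₁ (Subgroup.commutator_mem_commutator hx hy), fun g hg hc => ?_,
      fun e he he1 => ?_, cast_card_ne_zero_of_le hQ₁Q hkQ,
      fun N hN h3 h4 => hmin N hN (by rintro _ ⟨g, hg, rfl⟩; exact hg.elim (h3 g) (h4 g))⟩
    · obtain ⟨c, hc⟩ := hD z hz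
      exact ⟨c, fun v _ => by rw [hc]; rfl⟩
    · refine hZ₁ ⟨hg, fun y hy => ?_⟩
      obtain ⟨c, hc'⟩ := hD _ (hder₁ (Subgroup.commutator_mem_commutator hy hg))
      obtain ⟨v, hv, hv0⟩ := (Submodule.ne_bot_iff U).1 hU0
      have h3 := apply_comm (ρ := ρ) y g v
      rw [hc y hy v hv, hc'] at h3
      have h4 : c = 1 := by
        have h5 : ρ g (ρ y v) ≠ 0 := apply_ne_zero _ (apply_ne_zero _ hv0)
        exact smul_left_injective k h5 (show c • _ = (1 : k) • _ by rw [one_smul]; exact h3.symm)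
      rw [h4, one_smul] at hc'
      exact commutatorElement_eq_one_iff_mul_comm.1 (hρ _ hc')
    · refine comm_surj' le_sup_right hder₁ (hBQ₁ he) (sup_le_sup_right ?_ _)
      rw [← coprime_comm_comm (hYB.trans hB) hcopY (Or.inr hsQ)]
      exact Subgroup.commutator_mono le_sup_left (hω e he he1)
  have hcop₁ := Core.coprime_of_le_left hcop hQ₁Q
  obtain ⟨U, -, hl⟩ := hloc ⊤ top_ne_bot (fun _ _ _ _ => Submodule.mem_top)
    fun _ _ _ _ => Submodule.mem_top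
  obtain ⟨h1, h2⟩ := hl.cop' hkb hcop₁ fun v _ => nm_eq_zero hfix v
  obtain ⟨m, hm, h3⟩ := eq_pow_of_sq hq (hQ.to_le hQ₁Q) h1 hl.two_le
  have hκ : κ ≠ 0 := by
    rintro rfl
    have := hl.two_le
    omega
  have hCY : Q ⊓ 𝐂(Y) = Q ⊓ 𝐂(zpowers b) := by
    refine le_antisymm (fun y hy => ⟨hy.1, fun e he => hinj _ _ ?_⟩)
      (inf_le_inf_left _ (cent_anti hYB))
    have := fix_commutant hBQ₁ hkb hcop₁ hfix hloc (x := ρ y) (mem_fixSub_conjRep.2 fun g hg => by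
      rw [← map_mul, ← map_mul, h12 hg y hy])
    rw [map_mul, map_mul]
    exact mem_fixSub_conjRep.1 this e he
  haveI : D.Normal := ⟨fun z hz g => by
    rwa [hDc ⊤ hz g (Subgroup.mem_top g), mul_inv_cancel_right]⟩
  let π := QuotientGroup.mk' D
  have hV : IsElementaryAbelian q (Q.map π) := by
    refine ⟨der_eq_bot_iff.1 ?_, ?_⟩
    · rw [← Subgroup.map_commutator, Subgroup.map_eq_bot_iff, QuotientGroup.ker_mk']
      exact hder
    · rintro _ ⟨x, hx, rfl⟩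
      exact (map_pow π x q).symm.trans ((QuotientGroup.eq_one_iff _).2 (hpow x hx))
  let L : Subgroup G := P ⊔ zpowers b
  have hLQ : L ≤ 𝐍(Q) := sup_le hPQ hB
  obtain ⟨n, ρ', -, hc, hk⟩ := exists_rep hV (π.comp L.subtype)
    (fun g => Core.map_le_normalizer_map hLQ π ⟨g, g.2, rfl⟩) (AlgebraicClosure (ZMod q))
  let b' : L := ⟨b, (le_sup_right : _ ≤ L) (Subgroup.mem_zpowers b)⟩
  have himg : ∀ i : ℕ, π.comp L.subtype '' (zpowers (b' ^ i) : Set L) =
      ((zpowers (b ^ i)).map π : Subgroup _) := fun i => by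
    rw [← Subgroup.coe_map, MonoidHom.map_zpowers, MonoidHom.map_zpowers]; rfl
  have e1 := hc (zpowers (b' ^ 2 ^ κ))
  have e2 := hc (zpowers (b' ^ 1))
  rw [himg, map_inf_cent π (hYB.trans hB) hcopY (.inr hsQ), hCY] at e1
  rw [himg, pow_one, pow_one, map_inf_cent π hB hcop (.inr hsQ), e1] at e2
  have e3 := Submodule.eq_of_le_of_finrank_eq
    (fixSub_anti ρ' (show (zpowers (b' ^ 2 ^ κ) : Set L) ⊆ zpowers b' from zpowers_pow_le b' _))
    (Nat.pow_right_injective hq.two_le e2).symm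
  haveI : (P.subgroupOf L).Normal := Subgroup.normal_subgroupOf_of_le_normalizer
    (sup_le Subgroup.le_normalizer (Subgroup.zpowers_le.2 hbP))
  have hz : ∀ i : ℕ, zpowers (b' ^ i) = (zpowers (b ^ i)).subgroupOf L := fun i => by
    apply Subgroup.map_injective L.subtype_injective
    rw [Subgroup.map_subgroupOf_eq_of_le ((zpowers_pow_le b i).trans le_sup_right),
      MonoidHom.map_zpowers]
    rfl
  have hchar : ∀ r : ℕ, r.Prime → q ≠ r → (r : AlgebraicClosure (ZMod q)) ≠ 0 := fun r hr h => by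
    rw [Ne, CharP.cast_eq_zero_iff _ q]
    exact fun h' => h ((Nat.prime_dvd_prime_iff_eq hq hr).1 h')
  obtain ⟨m', hm', h4⟩ := layer (ρ := ρ') (P := P.subgroupOf L) (b := b') hs hs2
    (hP.comap_of_injective L.subtype L.subtype_injective) (Subtype.ext hb) hκ
    (by
      rw [← pow_one b', hz, pow_one, ← QuoApi.subgroupOf_sup' le_sup_left le_sup_right]
      exact Subgroup.subgroupOf_self L)
    (by
      rw [hz, ← QuoApi.subgroupOf_commutator le_sup_left (hYB.trans le_sup_right)]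
      exact Subgroup.subgroupOf_mono L hτ)
    (hchar s hs hqs) (by exact_mod_cast hchar 2 Nat.prime_two hq2) (by
      by_contra hcon
      push Not at hcon
      obtain ⟨a', ha'⟩ := IsPGroup.iff_card.1 hP
      refine hPnc (coprime_le_cent_of_comm_le_cent hPQ (by
        rw [ha, ha']; exact ((Nat.coprime_primes hq hs).2 hqs).pow _ _) (le_trans ?_ (hDc P)))
      rw [← QuotientGroup.ker_mk' D, ← Subgroup.map_eq_bot_iff, Subgroup.map_commutator,
        ← le_cent_iff_comm_eq_bot']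
      rintro _ ⟨g, hg, rfl⟩
      exact (hk ⟨g, (le_sup_left : _ ≤ L) hg⟩).1 (hcon _ hg)) e3.ge
  rw [hcB, h3, h4, Nat.add_right_cancel_iff] at h2
  exact hqs ((Nat.prime_dvd_prime_iff_eq hq hs).1 (hq.dvd_of_dvd_pow
    (h2 ▸ dvd_pow_self q (by omega))))

omit [IsAlgClosed k] [FiniteDimensional k W] in
theorem comm_le_fitting {H A Y : Subgroup G} [H.Normal] (hs : Group.IsSolvable H)
    (hcop : (Nat.card H).Coprime (Nat.card A)) (hYA : Y ≤ A)
    (h : ∀ s q : ℕ, s.Prime → q.Prime → q ≠ s → ∀ S ≤ H, IsPGroup s S → A ≤ 𝐍(S) →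
      piCoreOf {q} H ≤ 𝐂(⁅S, Y⁆)) : ⁅H, Y⁆ ≤ fittingOf H := by
  have hF : (fittingOf H).Normal := Subgroup.normalizer_eq_top_iff.1
    (top_le_iff.1 (le_norm_fittingOf_of Subgroup.le_normalizer_of_normal))
  let π := QuotientGroup.mk' (fittingOf H)
  have hπ : Function.Surjective π := QuotientGroup.mk'_surjective _
  have : (H.map π).Normal := Subgroup.Normal.map inferInstance π hπ
  rw [← QuotientGroup.ker_mk' (fittingOf H), ← Subgroup.map_eq_bot_iff, Subgroup.map_commutator,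
    ← le_cent_iff_comm_eq_bot']
  refine le_trans (le_inf le_rfl (le_cent_symm ?_)) (coprime_cent_Fitting
    Subgroup.le_normalizer_of_normal (coprime_map π (Core.coprime_of_le_right hcop hYA))
    (Core.solvable_map hs π))
  refine fittingOf_le_of_forall_piCoreOf fun s hsp _ => ?_
  have := Fact.mk hsp
  set N := piCoreOf {s} (H.map π)
  have hN : N.Normal := Subgroup.normalizer_eq_top_iff.1
    (top_le_iff.1 (le_norm_piCoreOf_of _ Subgroup.le_normalizer_of_normal))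
  have hFN : fittingOf H ≤ N.comap π := fun g hg => by
    rw [Subgroup.mem_comap, show π g = 1 from (QuotientGroup.eq_one_iff g).2 hg]
    exact N.one_mem
  have hNH' : N.comap π ≤ H := by
    refine (Subgroup.comap_mono (piCoreOf_le _ _)).trans ?_
    rw [Subgroup.comap_map_eq, QuotientGroup.ker_mk', sup_eq_left.2 (fittingOf_le H)]
  obtain ⟨S, hS, hAS⟩ := Core.exists_invariant_isSylowOf A (N.comap π)
    Subgroup.le_normalizer_of_normal (Core.coprime_of_le_left hcop hNH').symm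
    (Or.inr (solvable_mono hs hNH')) s
  obtain ⟨a, ha⟩ := IsPGroup.iff_card.1 (piCoreOf_isPGroup (p := s) (H.map π))
  have hsup : fittingOf H ⊔ S = N.comap π := hS.sup_eq_of_relIndex_eq_pow hFN (n := a) (by
    rw [Core.relIndex_eq_card_map_mk', Subgroup.map_comap_eq_self_of_surjective hπ, ha])
  set M := piCoreOf {s}ᶜ (fittingOf H)
  have hM : ∀ B : Subgroup G, B ≤ 𝐍(M) := fun B =>
    le_norm_piCoreOf_of _ Subgroup.le_normalizer_of_normal
  have hMS : M ⊔ S = N.comap π := by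
    refine le_antisymm (sup_le ((piCoreOf_le _ _).trans hFN) hS.le) (hsup.ge.trans (sup_le ?_
      le_sup_right))
    refine fittingOf_le_of_forall_piCoreOf fun q hq _ => ?_
    have := Fact.mk hq
    by_cases hqs : q = s
    · subst hqs
      exact (hS.normal_le (piCoreOf_isPGroup H) ((piCoreOf_le_fittingOf H).trans hFN)
        (le_norm_piCoreOf_of _ Subgroup.le_normalizer_of_normal)).trans le_sup_right
    · exact (nil_le_piCoreOf (fittingOf_nilpotent H) (piCoreOf_le_fittingOf H)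
        (pi_of_isPGroup (piCoreOf_isPGroup H) hqs)).trans le_sup_left
  have h1 : ⁅S, Y⁆ ≤ S ⊓ 𝐂(M) := by
    refine le_inf (comm_le_left (hYA.trans hAS)) (le_cent_symm (le_of_forall_pGroup_le
      fun q hq hd R hR hRq => ?_))
    have := Fact.mk hq
    exact (le_piCoreOf_of_le_fittingOf (hR.trans (piCoreOf_le _ _)) (isPGroup_iff_pi.1 hRq)).trans
      (h s q hsp hq (mem_of_pi_of_dvd hq (piCoreOf_pi _ _) hd) S (hS.le.trans hNH') hS.isPGroup hAS)
  rw [← piCoreOf_compl_eq_inf_cent (piCoreOf_pi _ _) (by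
    rw [compl_compl]; exact isPGroup_iff_pi.1 hS.isPGroup) (hM S), hMS, compl_compl] at h1
  have h2 : ⁅S, Y⁆ ≤ fittingOf H := h1.trans ((piCoreOf_normal_le hNH'
    Subgroup.le_normalizer_of_normal).trans (piCoreOf_le_fittingOf H))
  rw [← Subgroup.map_comap_eq_self_of_surjective hπ N, ← hsup, Subgroup.map_sup,
    (Subgroup.map_eq_bot_iff _).2 (QuotientGroup.ker_mk' _).ge, bot_sup_eq,
    le_cent_iff_comm_eq_bot, ← Subgroup.map_commutator, Subgroup.map_eq_bot_iff,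
    QuotientGroup.ker_mk']
  exact h2

theorem rep_core {H : Subgroup G} [H.Normal] (hs : Group.IsSolvable H) {x : G} {n ℓ : ℕ}
    [Fact ℓ.Prime] [CharP k ℓ] (hx : orderOf x = 2 ^ (n + 1)) (h2 : ¬ 2 ∣ Nat.card H)
    (hk2 : (2 : k) ≠ 0) (hO : pCore ℓ G = ⊥) (hρ : ∀ g, ρ g = 1 → g = 1)
    (hfix : fixSub ρ (zpowers x) = ⊥) : ⁅H, zpowers (x ^ 2 ^ n)⁆ ≤ fittingOf H := by
  have hcA : Nat.card (zpowers x) = 2 ^ (n + 1) := by rw [Nat.card_zpowers, hx]
  have hcop : (Nat.card H).Coprime (Nat.card (zpowers x)) := by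
    rw [hcA]; exact ((Nat.Prime.coprime_iff_not_dvd Nat.prime_two).2 h2).symm.pow_right _
  set Y := zpowers (x ^ 2 ^ n) with hY
  have hYA : Y ≤ zpowers x := zpowers_pow_le x _
  refine comm_le_fitting hs hcop hYA fun s q hsp hq hqs S hSH hS hAS => ?_
  by_contra hc
  haveI := Fact.mk hsp
  haveI := Fact.mk hq
  set P : Subgroup G := ⁅S, Y⁆ with hP
  have hPS : P ≤ S := comm_le_left (hYA.trans hAS)
  have hPp : IsPGroup s P := hS.to_le hPS
  have hAP : zpowers x ≤ 𝐍(P) := le_norm_comm hAS (zpowers_norm_pow x _)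
  have hPτ : P ≤ ⁅P, Y⁆ := (coprime_comm_comm (hYA.trans hAS) (Core.coprime_of_le_right
    (Core.coprime_of_le_left hcop hSH) hYA) (.inr (solvable_of_isPGroup hS))).ge
  obtain ⟨Q, hQH, hmin⟩ := exists_minAct (T := P ⊔ zpowers x)
    (le_norm_piCoreOf_of _ Subgroup.le_normalizer_of_normal) le_sup_left
    (sup_le Subgroup.le_normalizer hAP)
    (pi_coprime (piCoreOf_pi {q} H) (pi_of_isPGroup hPp (Ne.symm hqs)))
    (solvable_of_isPGroup (piCoreOf_isPGroup H)) hc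
  have hQ : IsPGroup q Q := (piCoreOf_isPGroup H).to_le hQH
  have hqℓ : q ≠ ℓ := ne_of_piCoreOf_ne_bot hq hO (ne_bot_mono hmin.ne_bot hQH)
  have hodd : ∀ r : ℕ, ∀ R ≤ H, R ≠ ⊥ → IsPGroup r R → r.Prime → r ≠ 2 := by
    rintro r R hR h0 hr hrp rfl
    haveI := Fact.mk hrp
    obtain ⟨a, ha0, ha⟩ := hr.nontrivial_iff_card.1 ((Subgroup.nontrivial_iff_ne_bot R).2 h0)
    exact h2 ((ha ▸ dvd_pow_self 2 ha0.ne').trans (Subgroup.card_dvd_of_le hR))
  have hq2 := hodd q Q (hQH.trans (piCoreOf_le _ _)) hmin.ne_bot hQ hq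
  have hs2 := hodd s P (hPS.trans hSH) (fun e => hc (by rw [e, cent_bot]; exact le_top)) hPp hsp
  have hkQ : (Nat.card Q : k) ≠ 0 := cast_card_ne_zero hq hqℓ hQ
  have hAQ : zpowers x ≤ 𝐍(Q) := le_sup_right.trans hmin.norm
  have hPQ : P ≤ 𝐍(Q) := le_sup_left.trans hmin.norm
  have hω := omega_le Nat.prime_two hx (Nat.le_add_left 1 n)
  have hkA : (Nat.card (zpowers x) : k) ≠ 0 := by
    rw [hcA, Nat.cast_pow]; exact pow_ne_zero _ hk2
  by_cases hab : ⁅Q, Q⁆ = ⊥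
  · have h1 : ⁅Q, Y⁆ = ⊥ := (Subgroup.eq_bot_iff_forall _).2 fun g hg => hρ g
      (LinearMap.ext fun v => comm_trivial (ρ := ρ) (U := ⊤) hkQ hAQ hω
        (fun _ _ _ _ => Submodule.mem_top) (fun a ha b hb v _ => by
          rw [← Module.End.mul_apply, ← Module.End.mul_apply, ← map_mul, ← map_mul,
            le_cent_iff_comm_eq_bot.2 hab hb a ha]) (fun v _ => nm_eq_zero hfix v) g hg v
        Submodule.mem_top)
    exact hmin.nle (le_cent_symm (hPτ.trans (comm_le_cent_of_norm hPQ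
      (le_cent_iff_comm_eq_bot'.2 h1))))
  obtain ⟨g, hg, hg1⟩ := exists_mem_ne_one hab
  set D := Q ⊓ 𝐂(P) with hD
  have hkD : (Nat.card D : k) ≠ 0 := cast_card_ne_zero_of_le inf_le_left hkQ
  obtain ⟨l, hl, hwt⟩ := exists_wt_of_comm (ρ := ρ) hkD
    (hmin.D_le_cent.trans (cent_anti inf_le_left)) (hmin.der_le hg) fun h => hg1 (hρ g h)
  have hAD : zpowers x ≤ 𝐍(D) := le_sup_right.trans hmin.normD
  obtain ⟨j, hj, hjl⟩ := exists_eq_zpowers_pow Nat.prime_two hx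
    (inf_le_left : zpowers x ⊓ stab l ≤ _)
  obtain ⟨v, hv, hv0⟩ := (Submodule.ne_bot_iff _).1 hwt
  have hjn : j ≤ n := by
    by_contra hlt
    obtain rfl : j = n + 1 := by omega
    refine inf_stab_ne_bot hkD hAD hv hv0 (nm_eq_zero hfix v) ?_
    rw [hjl, ← hx, pow_orderOf_eq_one, Subgroup.zpowers_one_eq_bot]
  obtain ⟨κ, rfl⟩ : ∃ κ, n = j + κ := ⟨n - j, by omega⟩
  set U := wt ρ D l
  have hst : stab l ≤ stabU ρ U := stab_le_stabU l
  have hQU : Q ≤ stabU ρ U := ((le_cent_symm hmin.D_le_cent).trans (cent_le_stab l)).trans hst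
  have hPU : P ≤ stabU ρ U := ((le_cent_symm inf_le_right).trans (cent_le_stab l)).trans hst
  have hBU : zpowers (x ^ 2 ^ j) ≤ stabU ρ U := (hjl.ge.trans inf_le_right).trans hst
  have hb : x ^ 2 ^ j ∈ stabU ρ U := hBU (Subgroup.mem_zpowers _)
  let b' := QuotientGroup.mk' (resU ρ U).ker ⟨x ^ 2 ^ j, hb⟩
  have hb' : ∀ i, b' ^ i = QuotientGroup.mk' (resU ρ U).ker
      ⟨(x ^ 2 ^ j) ^ i, Subgroup.pow_mem _ hb i⟩ := fun i => by rw [← map_pow]; rfl
  have hYe : (x ^ 2 ^ j) ^ 2 ^ κ = x ^ 2 ^ (j + κ) := by rw [← pow_mul, ← pow_add]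
  have hnb : ∀ A : Subgroup G, zpowers x ≤ 𝐍(A) → b' ∈ 𝐍(imQ ρ U A) := fun A hA => by
    have := imQ_norm (ρ := ρ) (U := U) ((zpowers_pow_le x (2 ^ j)).trans hA)
    rw [imQ_zpowers hb] at this
    exact this (Subgroup.mem_zpowers _)
  haveI : Nontrivial U := Submodule.nontrivial_iff_ne_bot.2 hwt
  refine homog (ρ := resQ ρ U) (Q := imQ ρ U Q) (D := imQ ρ U D) (P := imQ ρ U P) (b := b')
    (κ := κ) hq hsp hqs hq2 hs2 (isPGroup_imQ hQ) (isPGroup_imQ hPp) ?_ (hnb P hAP) (hnb Q hAQ)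
    (imQ_norm hPQ) ?_ (imQ_mono inf_le_left) (imQ_comm hQU hQU ▸ imQ_mono hmin.der_le) ?_ ?_ ?_ ?_
    ?_ hk2 resQ_faithful ?_
  · rw [hb']
    have : (x ^ 2 ^ j) ^ 2 ^ (κ + 1) = 1 := by
      rw [← pow_mul, ← pow_add, ← add_assoc, ← hx, pow_orderOf_eq_one]
    simp only [this]; exact map_one _
  · rw [hb', ← imQ_zpowers, ← imQ_comm hPU ((zpowers_pow_le _ _).trans hBU), hYe]
    exact imQ_mono hPτ
  · rintro _ ⟨y, hy, rfl⟩
    exact ⟨y ^ q, hmin.pow_mem hq hQ y hy, map_pow _ _ _⟩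
  · rw [imQ, imQ, map_inf_cent _ (Core.subgroupOf_le_normalizer_subgroupOf hPQ _) (by
      rw [Core.card_subgroupOf_of_le hQU, Core.card_subgroupOf_of_le hPU]; exact hmin.cop)
      (.inr (solvable_of_isPGroup (hQ.comap_of_injective _ (stabU ρ U).subtype_injective))),
      inf_cent_subgroupOf hPU]
  · rintro _ ⟨z, hz, rfl⟩
    exact ⟨l ⟨z, hz⟩, LinearMap.ext fun w => Subtype.ext (mem_wt.1 w.2 ⟨z, hz⟩)⟩
  · rw [← imQ_comm hQU hQU, Ne, imQ_eq_bot_iff ((der_le Q).trans hQU)]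
    exact fun h => hl (inf_kerU_le le_rfl hwt ⟨hmin.der_le hg, h hg⟩)
  · rw [Ne, CharP.cast_eq_zero_iff k ℓ]
    exact fun h => hqℓ ((Nat.prime_dvd_prime_iff_eq Fact.out hq).1 h).symm
  · rw [← imQ_zpowers hb]
    refine fixSub_imQ hBU (inf_fixSub_eq_bot (cast_card_ne_zero_of_le (zpowers_pow_le _ _) hkA)
      fun w hw => ?_)
    rw [← hjl]
    exact nm_stab hkD hAD hw (nm_eq_zero hfix w)

theorem nres_two {X : Type u} [Group X] [Finite X] {G : Subgroup X} {x : X} [G.Normal]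
    (hs : Group.IsSolvable G) {n : ℕ} (htop : G ⊔ zpowers x = ⊤) (hx : IsPGroup 2 (zpowers x))
    (hxn : x ^ 2 ^ (n + 1) ∈ 𝐂(G)) (hC : G ⊓ 𝐂[x] = ⊥) :
    nres^[2] ⁅G, zpowers (x ^ 2 ^ n)⁆ = ⊥ := by
  have := normal_comm_of_sup htop (zpowers_norm_pow x (2 ^ n))
  rw [← cent_zpowers] at hC
  have hcop := coprime_of_fpf Nat.prime_two hx Subgroup.le_normalizer_of_normal hC
  change nres (nres _) = ⊥
  rw [nres_eq_bot_iff]
  refine nilpotent_of_reps ((nres_le _).trans (comm_le_left Subgroup.le_normalizer_of_normal)) hs ?_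
  intro X' _ _ f hf ℓ _ hℓ k _ _ _ d ρ hρ hO hker hfix
  haveI : Fact (Nat.Prime 2) := ⟨Nat.prime_two⟩
  have hG' : (G.map f).Normal := Subgroup.Normal.map inferInstance f hf
  rw [map_nres, nres_eq_bot_iff, Subgroup.map_commutator, MonoidHom.map_zpowers, map_pow]
  by_cases h1 : f x ^ 2 ^ n = 1
  · rw [h1, Subgroup.zpowers_one_eq_bot, Subgroup.commutator_bot_right]; infer_instance
  have hx' : orderOf (f x) = 2 ^ (n + 1) := orderOf_eq_prime_pow h1
    (by rw [← map_pow]; exact hker hxn)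
  have h2x : 2 ∣ Nat.card (zpowers x) := by
    rw [Nat.card_zpowers]
    exact (hx' ▸ dvd_pow_self 2 (Nat.succ_ne_zero n)).trans (orderOf_map_dvd f x)
  have h2 : ¬ 2 ∣ Nat.card G := fun h => by
    simpa using Nat.eq_one_of_dvd_coprimes hcop h h2x
  have hfix' := hfix _ Subgroup.le_normalizer_of_normal hcop hC
  rw [MonoidHom.map_zpowers] at hfix'
  refine nilpotent_of_le_fittingOf (rep_core (Core.solvable_map hs f) hx'
    (fun h => h2 (h.trans (Subgroup.card_map_dvd G f))) ?_ hO hρ hfix')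
  have : ((2 : ℕ) : k) ≠ 0 := by
    rw [Ne, CharP.cast_eq_zero_iff k ℓ]
    exact fun h => h2 (((Nat.prime_dvd_prime_iff_eq Fact.out Nat.prime_two).1 h) ▸ hℓ)
  exact_mod_cast this

/-- Gross's theorem. -/
theorem gross (n : ℕ) :
    ∀ {X : Type u} [Group X] [Finite X] {G : Subgroup X} [G.Normal] {x : X}, Group.IsSolvable G →
      G ⊔ zpowers x = ⊤ → IsPGroup 2 (zpowers x) → x ^ 2 ^ (n + 2) ∈ 𝐂(G) → G ⊓ 𝐂[x] = ⊥ →
      nres^[2 * n + 2] G = ⊥ := by
  induction n with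
  | zero =>
    intro X _ _ G _ x hs htop hx h hC
    change nres (nres G) = ⊥
    rw [nres_eq_bot_iff]
    exact nilpotent_mono (nilpotent_der_four hs htop hx h hC) (nres_le_der G)
  | succ n ih =>
    intro X _ _ G _ x hs htop hx hxn hC
    have := normal_comm_of_sup htop (zpowers_norm_pow x (2 ^ (n + 2)))
    let π := QuotientGroup.mk' ⁅G, zpowers (x ^ 2 ^ (n + 2))⁆
    have hπ : Function.Surjective π := QuotientGroup.mk'_surjective _
    have : (G.map π).Normal := Subgroup.Normal.map inferInstance π hπ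
    have h1 := nres_iter_le_of_map (ih (Core.solvable_map hs π) (map_sup_zpowers hπ htop)
      (MonoidHom.map_zpowers π x ▸ hx.map π) (map_pow π x _ ▸ mk_mem_cent_map)
      (map_fpf_cyc π hs Nat.prime_two hx hC))
    rw [show 2 * (n + 1) + 2 = 2 + (2 * n + 2) by ring, Function.iterate_add_apply, ← le_bot_iff,
      ← nres_two hs htop hx hxn hC]
    exact nres_iter_mono h1 2

end Cfsg.Agent.Gross
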