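import Mathlib
import Cfsg.Agent.Gross.B
import Cfsg.Agent.H23.PL6
import Cfsg.Agent.PGrp.Aut

/-!
# Exceptional `2`-elements: auxiliary lemmas for Gross's bound on the `2`-length
-/

set_option autoImplicit false

namespace Cfsg.Agent.Gross

open Module Cfsg.Agent.BG Cfsg.Agent.BG.Amb Cfsg.Agent.BG.RepGlue Cfsg.Agent.BG.RepWeight
  Cfsg.Agent.BG.RepFrob Cfsg.Agent.BG.RepExtra Cfsg.Agent.BG.RepPrime Cfsg.Agent.H23.HH
  Cfsg.Agent.BG.QuoApi
open scoped commutatorElement Pointwise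
open Subgroup (zpowers)

theorem mersenne_exp {q m n : ℕ} (hq : q.Prime) (hq2 : q ≠ 2) (hm : 1 ≤ m)
    (h : 2 ^ n = q ^ m + 1) : m = 1 := by
  obtain ⟨r, rfl⟩ := hq.odd_of_ne_two hq2
  have hq3 := hq.two_le
  rcases Nat.even_or_odd' m with ⟨t, rfl | rfl⟩
  · exfalso
    obtain ⟨u, hu⟩ : Odd ((2 * r + 1) ^ t) := Odd.pow ⟨r, rfl⟩
    have h1 : 1 < (2 * r + 1) ^ t := Nat.one_lt_pow (by omega) (by omega)
    rw [mul_comm 2 t, pow_mul, hu] at h
    rcases n with _ | _ | n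
    · simp at h
    · have h2 : (2 * u + 1) ^ 2 = 4 * (u * u + u) + 1 := by ring
      omega
    · have : 2 ^ (n + 1 + 1) = 4 * 2 ^ n := by ring
      have h2 : (2 * u + 1) ^ 2 = 4 * (u * u + u) + 1 := by ring
      omega
  · have h1 := Odd.nat_add_dvd_pow_add_pow (2 * r + 1) 1 (n := 2 * t + 1) ⟨t, rfl⟩
    rw [one_pow, ← h] at h1
    obtain ⟨j, hjn, hj⟩ := (Nat.dvd_prime_pow Nat.prime_two).1 h1
    have h2 : 1 ≡ (2 * r + 1) ^ 2 [MOD 2 ^ (j + 1)] := by
      refine (Nat.modEq_iff_dvd' (Nat.one_le_pow _ _ (by omega))).2 ⟨r, ?_⟩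
      rw [pow_succ 2 j, ← hj]
      refine Nat.sub_eq_of_eq_add (by ring)
    have h3 := ((h2.pow t).mul_right (2 * r + 1)).add_right 1
    rw [one_pow, one_mul, ← pow_mul, ← pow_succ, ← h, hj] at h3
    rcases hjn.eq_or_lt with rfl | hlt
    · rw [← hj, Nat.add_right_cancel_iff] at h
      exact (Nat.pow_eq_self_iff (by omega)).1 h.symm
    · exfalso
      have h4 := (h3.dvd_iff dvd_rfl).2 (pow_dvd_pow 2 hlt)
      have := (Nat.pow_dvd_pow_iff_le_right one_lt_two).1 h4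
      omega

theorem pow_mul_der {R : Type*} [Ring R] {N S T : R} (h1 : N * S = S * N + T) (h2 : N * T = T * N)
    (m : ℕ) : N ^ (m + 1) * S = S * N ^ (m + 1) + (m + 1) • (T * N ^ m) := by
  induction m with
  | zero => simpa using h1
  | succ m ih =>
    rw [pow_succ' N (m + 1), mul_assoc, ih, mul_add, ← mul_assoc, h1, mul_smul_comm, ← mul_assoc,
      h2, succ_nsmul _ (m + 1), add_mul, mul_assoc T N, ← pow_succ', mul_assoc S N]
    abel

section Rep

variable {k G W : Type*} [Field k] [Group G] [AddCommGroup W] [Module k W]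
  [IsAlgClosed k] [Finite G] [FiniteDimensional k W] {ρ : Representation k G W}

theorem fix_commutant_mod [CharP k 2] {P Z : Subgroup G} {b : G} {n : ℕ}
    (hb : orderOf b = 2 ^ (n + 1)) (hbP : b ∈ 𝐍(P)) (h0 : (ρ b - 1) ^ (2 ^ (n + 1) - 1) = 0)
    (hloc : ∀ U₀ : Submodule k W, U₀ ≠ ⊥ → (∀ g ∈ P, ∀ v ∈ U₀, ρ g v ∈ U₀) →
      (∀ g ∈ zpowers b, ∀ v ∈ U₀, ρ g v ∈ U₀) → ∃ U ≤ U₀, Loc ρ P Z (zpowers b) U) :
    fixSub (conjRep ρ) P ≤ fixSub (conjRep ρ) (zpowers b) := by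
  classical
  haveI : Fact (Nat.Prime 2) := ⟨Nat.prime_two⟩
  have hz : ∀ S, (conjRep ρ b - 1) S = 0 → S ∈ fixSub (conjRep ρ) (zpowers b) := fun S h => by
    rw [Subgroup.zpowers_eq_closure, fixSub_closure]
    rintro _ rfl
    exact sub_eq_zero.1 h
  intro S hS
  refine hz S (by_contra fun hne => ?_)
  have hex : ∃ i : ℕ, ((conjRep ρ b - 1 : Module.End k _) ^ (i + 1)) S = 0 := ⟨2 ^ (n + 1), by
    rw [pow_succ', sub_one_pow_char, ← map_pow, ← hb, pow_orderOf_eq_one, map_one, sub_self,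
      mul_zero, LinearMap.zero_apply]⟩
  obtain ⟨i, hi⟩ : ∃ i, Nat.find hex = i + 1 := Nat.exists_eq_succ_of_ne_zero fun h => hne (by
    have := Nat.find_spec hex
    rwa [h, zero_add, pow_one] at this)
  have h1 := Nat.find_spec hex
  have h2 := Nat.find_min hex (m := i) (by omega)
  rw [hi, pow_succ', Module.End.mul_apply] at h1
  have hmem := fun s => pow_sub_one_mem (ρ := conjRep ρ) (U := fixSub (conjRep ρ) P) (g := b)
    (fun v hv => apply_mem_fixSub _ hbP hv) s S hS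
  set S' := ((conjRep ρ b - 1) ^ (i + 1)) S with hS'
  have h3 := mem_fixSub_conjRep.1 (hz S' h1)
  have h4 := mem_fixSub_conjRep.1 (hmem (i + 1))
  set S₁ := ((conjRep ρ b - 1) ^ i) S
  have h5 : S' * ρ b = ρ b * S₁ - S₁ * ρ b := by
    rw [hS', pow_succ', Module.End.mul_apply, LinearMap.sub_apply, conjRep_apply,
      Module.End.one_apply, sub_mul, mul_assoc _ _ (ρ b), ← map_mul, inv_mul_cancel, map_one,
      mul_one]
  have h6 : ρ b * S' = S' * ρ b := h3 b (Subgroup.mem_zpowers b)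
  obtain ⟨m, hm⟩ : ∃ m, 2 ^ (n + 1) = m + 2 := ⟨2 ^ (n + 1) - 2, by
    have := Nat.one_le_two_pow (n := n); omega⟩
  have h7 : (ρ b - 1) * (S' * ρ b) = S' * ρ b * (ρ b - 1) := by
    rw [sub_mul, mul_sub, ← mul_assoc, h6, one_mul, mul_one]
  have h8 := pow_mul_der (N := ρ b - 1) (S := S₁) (T := S' * ρ b)
    (by rw [h5, sub_mul, mul_sub, one_mul, mul_one]; abel) h7 m
  rw [hm, show m + 2 - 1 = m + 1 from rfl] at h0
  rw [h0, zero_mul, mul_zero, zero_add, ← Nat.cast_smul_eq_nsmul k, eq_comm, smul_eq_zero,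
    ← (Commute.pow_left h7 m).eq] at h8
  have h9 := h8.resolve_left (by
    rw [CharP.cast_eq_zero_iff k 2]
    have : 2 ∣ m + 2 := hm ▸ dvd_pow_self 2 (Nat.succ_ne_zero n)
    omega)
  obtain ⟨U, hU, hl⟩ := hloc (LinearMap.range S') (fun h => h2 (LinearMap.range_eq_bot.1 h))
    (by
      rintro g hg _ ⟨w, rfl⟩
      exact ⟨ρ g w, by rw [← Module.End.mul_apply, ← h4 g hg, Module.End.mul_apply]⟩)
    (by
      rintro g hg _ ⟨w, rfl⟩
      exact ⟨ρ g w, by rw [← Module.End.mul_apply, ← h3 g hg, Module.End.mul_apply]⟩)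
  have := hl.modular m (fun v hv => by
    obtain ⟨w, rfl⟩ := hU hv
    have := LinearMap.congr_fun h9 (ρ b⁻¹ w)
    simpa only [Module.End.mul_apply, Representation.self_inv_apply, LinearMap.zero_apply]
      using this) (by omega)
  omega

omit [IsAlgClosed k] in
theorem orbit_rank {D : Subgroup G} (hD : (Nat.card D : k) ≠ 0) {b : G} (hb : b ∈ 𝐍(D)) {κ : ℕ}
    (hκ : κ ≠ 0) (hb1 : b ^ 2 ^ (κ + 1) = 1) {l : D →* kˣ} (hl : b ^ 2 ^ κ ∉ stab l)
    (hw : wt ρ D l ≠ ⊥) : 3 + finrank k (fixSub ρ (zpowers b)) ≤ finrank k W := by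
  haveI : Fact (Nat.Prime 2) := ⟨Nat.prime_two⟩
  have ho : orderOf b = 2 ^ (κ + 1) :=
    orderOf_eq_prime_pow (fun e => hl (e ▸ Subgroup.one_mem _)) hb1
  let Y : 𝐍(D) := ⟨b, hb⟩
  have h4 : 4 ≤ 2 ^ (κ + 1) := Nat.pow_le_pow_right (n := 2) two_pos (show 2 ≤ κ + 1 by omega)
  have hF : ∀ i d : ℕ, d < 4 → cchar (Y ^ i) l = cchar (Y ^ (i + d)) l → d = 0 := by
    intro i d hd h
    rw [pow_add, cchar_mul] at h
    by_contra h0
    have := omega_le Nat.prime_two ho (by omega) _ (Subgroup.npow_mem_zpowers b d)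
      (pow_ne_one_of_lt_orderOf h0 (by omega)) (Subgroup.mem_zpowers _)
    exact hl (Subgroup.zpowers_le.2 ((mem_stab (Y ^ d).2).2 (cchar_injective _ h).symm) this)
  have hF' : ∀ i j : ℕ, i < 4 → j < 4 → cchar (Y ^ i) l = cchar (Y ^ j) l → i = j := by
    intro i j hi hj h
    rcases le_total i j with hij | hij
    · obtain ⟨d, rfl⟩ := Nat.exists_eq_add_of_le hij
      have := hF i d (by omega) h; omega
    · obtain ⟨d, rfl⟩ := Nat.exists_eq_add_of_le hij
      have := hF j d (by omega) h.symm; omega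
  have := card_add_finrank_fix_le (ρ := ρ) hD (Z := zpowers b) (Subgroup.zpowers_le.2 hb)
    (ι := Fin 3) (fun a => cchar (Y ^ a.1) l)
    (fun a c h => Fin.ext (hF' _ _ (by omega) (by omega) h)) (fun a => wt_cchar_ne_bot hw _)
    (fun a => ⟨b ^ (3 - a.1), Subgroup.npow_mem_zpowers _ _, fun c h => by
      have h1 : cchar (Y ^ (3 - a.1 + a.1)) l = cchar (Y ^ c.1) l := by
        rw [pow_add, cchar_mul]; exact h
      have := hF' _ _ (by omega) (by omega) h1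
      omega⟩)
  rwa [Fintype.card_fin] at this

end Rep

section Grp

variable {G : Type*} [Group G] [Finite G]

theorem small {T R P : Subgroup G} {s m : ℕ} (hs : s.Prime) (hs2 : s ≠ 2) (hP : IsPGroup s P)
    (hTR : T ≤ 𝐍(R)) (hPR : P ≤ 𝐍(R)) (hPT : P ≤ 𝐍(T)) (hder : ⁅T, T⁆ ≤ R)
    (hsq : ∀ t ∈ T, t ^ 2 ∈ R) (hc : R.relIndex T = 2 ^ m) (hm : m ≤ 4) : ⁅T, ⁅P, P⁆⁆ ≤ R := by
  haveI : Fact (Nat.Prime 2) := ⟨Nat.prime_two⟩
  haveI := Fact.mk hs
  have hV : IsElementaryAbelian 2 (quo R T) := (elem_quo_iff hTR).2 ⟨hder, hsq⟩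
  obtain ⟨φ, hφ⟩ := exists_matrix_rep_ker hV ((card_quo hTR).trans hc) (quoHom hPR)
    fun g => quo_le_normalizer hPT (mk_mem_quo g.2)
  let ψ := φ.toHomUnits
  obtain ⟨a, ha⟩ := IsPGroup.iff_card.1
    (hP.of_surjective ψ.rangeRestrict ψ.rangeRestrict_surjective)
  have h1 : s ^ a ∣ 20160 := by
    refine (ha ▸ Subgroup.card_subgroup_dvd_card ψ.range).trans ?_
    rw [Matrix.card_GL_field, ZMod.card]
    interval_cases m <;> decide
  have h2 : a ≤ 2 := by
    by_contra h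
    have h3 := (pow_dvd_pow s (show 3 ≤ a by omega)).trans h1
    have h4 : s < 28 := by
      by_contra h5
      have := Nat.le_of_dvd (by norm_num) h3
      have := Nat.pow_le_pow_left (not_lt.1 h5) 3
      omega
    have h5 := hs.eq_two_or_odd.resolve_left hs2
    have h6 := hs.two_le
    interval_cases s <;> omega
  have h3 : IsMulCommutative ψ.range := by
    rcases h2.eq_or_lt with rfl | h
    · exact IsPGroup.isMulCommutative_of_card_eq_prime_sq ha
    · have : IsCyclic ψ.range := isCyclic_of_card_dvd_prime (p := s) (by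
        rw [ha]; exact (pow_dvd_pow s (show a ≤ 1 by omega)).trans (pow_one s).dvd)
      infer_instance
  rw [Subgroup.commutator_comm, ← quo_le_centralizer_iff (comm_le_of_le hPR hPR) hTR,
    quo_commutator hPR hPR, ← quoHom_range hPR, MonoidHom.range_eq_map, ← Subgroup.map_commutator]
  rintro _ ⟨g, hg, rfl⟩
  refine (hφ g).1 (congrArg Units.val (show ψ g = 1 from ?_))
  have h4 := der_eq_bot_iff.2 h3
  rw [MonoidHom.range_eq_map, ← Subgroup.map_commutator, Subgroup.map_eq_bot_iff] at h4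
  exact h4 hg

theorem low {T D P : Subgroup G} [T.Normal] [D.Normal] {s e : ℕ} (hs : s.Prime) (hs2 : s ≠ 2)
    (hP : IsPGroup s P) {x : G} (hxP : x ∈ 𝐍(P)) (hx : orderOf x = 2 ^ (e + 1))
    (hder : ⁅T, T⁆ ≤ D) (hsq : ∀ t ∈ T, t ^ 2 ∈ D) (hexp : ∀ t ∈ T, (t * x) ^ 2 ^ (e + 1) = 1)
    (h : ⁅T, ⁅P, P⁆⁆ ≤ D) : ⁅T, ⁅P, zpowers (x ^ 2 ^ e)⁆⁆ ≤ D := by
  haveI : Fact (Nat.Prime 2) := ⟨Nat.prime_two⟩
  let π := QuotientGroup.mk' D
  haveI : (T.map π).Normal := Subgroup.Normal.map inferInstance π (QuotientGroup.mk'_surjective D)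
  have hV : IsElementaryAbelian 2 (T.map π) := by
    refine ⟨der_eq_bot_iff.1 ?_, ?_⟩
    · rw [← Subgroup.map_commutator, Subgroup.map_eq_bot_iff, QuotientGroup.ker_mk']
      exact hder
    · rintro _ ⟨x, hx, rfl⟩
      exact (map_pow π x 2).symm.trans ((QuotientGroup.eq_one_iff _).2 (hsq x hx))
  obtain ⟨n, ρ, ι, hl⟩ := exists_lin hV (AlgebraicClosure (ZMod 2))
  let ρ' : Representation (AlgebraicClosure (ZMod 2)) G _ := ρ.comp π
  have key : ∀ A : Subgroup G, ⁅T, A⁆ ≤ D ↔ ∀ g ∈ A, ρ' g = 1 := fun A => by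
    rw [← QuotientGroup.ker_mk' D, ← Subgroup.map_eq_bot_iff, Subgroup.map_commutator,
      ← le_cent_iff_comm_eq_bot', Subgroup.map_le_iff_le_comap]
    exact forall₂_congr fun g _ => hl.eq_one_iff.symm
  refine (key _).2 fun g hg => LinearMap.ext fun v => ?_
  refine comm_trivial (ρ := ρ') (U := ⊤) (cast_card_ne_zero (p := 2) hs hs2 hP)
    (Subgroup.zpowers_le.2 hxP) (omega_le Nat.prime_two hx (Nat.le_add_left 1 e))
    (fun _ _ _ _ => trivial) (fun a ha b hb v _ => by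
      rw [apply_comm a b v, (key _).1 h _ (Subgroup.commutator_mem_commutator ha hb)]; rfl)
    (fun v _ => ?_) g hg v trivial
  have hx1 : π x ^ 2 ^ (e + 1) = 1 := by rw [← map_pow, ← hx, pow_orderOf_eq_one, map_one]
  rw [nm_zpowers, hx, hl.span (∑ i ∈ Finset.range (2 ^ (e + 1)), ρ' x ^ i) ?_, LinearMap.zero_apply]
  rintro _ ⟨t, ht, rfl⟩
  have := hl.mul_pow' (x := π x) (m := 2 ^ (e + 1)) (Subgroup.mem_map_of_mem π ht)
    (hx1 ▸ Subgroup.one_mem _)
  rw [hx1, ← map_mul, ← map_pow, hexp t ht, map_one, hl.one, add_zero] at this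
  exact this.symm

theorem comm_closure_le {S : Set G} {A N : Subgroup G} (hN : Subgroup.closure S ≤ 𝐍(N))
    (h : ∀ x ∈ S, ∀ a ∈ A, ⁅x, a⁆ ∈ N) : ⁅Subgroup.closure S, A⁆ ≤ N := by
  rw [Subgroup.commutator_le]
  intro x hx a ha
  induction hx using Subgroup.closure_induction with
  | mem x hx => exact h x hx a ha
  | one => simp
  | mul x y hx hy ihx ihy =>
    rw [commutatorElement_mul_left_eq_conj_mul]
    exact N.mul_mem (conj_mem_of_le_norm hN hx ihy) ihx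
  | inv x hx ih =>
    rw [commutatorElement_inv_left, ← commutatorElement_inv]
    exact inv_conj_mem_of_le_norm hN hx (N.inv_mem ih)

end Grp

end Cfsg.Agent.Gross
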