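import Mathlib
import Cfsg.Agent.Gross.C

/-!
# Exceptional `2`-elements: the top layer
-/

set_option autoImplicit false

namespace Cfsg.Agent.Gross

open Module Cfsg.Agent.BG Cfsg.Agent.BG.Amb Cfsg.Agent.BG.RepGlue Cfsg.Agent.BG.RepWeight
  Cfsg.Agent.BG.RepFrob Cfsg.Agent.BG.RepExtra Cfsg.Agent.BG.RepPrime Cfsg.Agent.H23.HH
  Cfsg.Agent.BG.QuoApi
open scoped commutatorElement Pointwise
open Subgroup (zpowers)

universe u

section Tri

variable {G : Type*} [Group G]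

/-- A cyclic `2`-group acting on an `s`-group acting on a special `2`-group. -/
structure Tri (s κ : ℕ) (T D P : Subgroup G) (b : G) : Prop where
  pT : IsPGroup 2 T
  pP : IsPGroup s P
  bT : b ∈ 𝐍(T)
  bP : b ∈ 𝐍(P)
  bD : b ∈ 𝐍(D)
  PT : P ≤ 𝐍(T)
  le : D ≤ T
  der : ⁅T, T⁆ ≤ D
  cT : D ≤ 𝐂(T)
  cP : D ≤ 𝐂(P)
  sq : ∀ t ∈ T, t ^ 2 ∈ D
  pow : b ^ 2 ^ (κ + 1) = 1
  Pτ : P ≤ ⁅P, zpowers (b ^ 2 ^ κ)⁆
  TP : T ≤ ⁅T, ⁅P, P⁆⁆

variable {s κ : ℕ} {T D P : Subgroup G} {b : G}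

theorem Tri.map {G' : Type*} [Group G'] (h : Tri s κ T D P b) (f : G →* G') :
    Tri s κ (T.map f) (D.map f) (P.map f) (f b) where
  pT := h.pT.map f
  pP := h.pP.map f
  bT := Subgroup.le_normalizer_map f ⟨b, h.bT, rfl⟩
  bP := Subgroup.le_normalizer_map f ⟨b, h.bP, rfl⟩
  bD := Subgroup.le_normalizer_map f ⟨b, h.bD, rfl⟩
  PT := Core.map_le_normalizer_map h.PT f
  le := Subgroup.map_mono h.le
  der := by rw [← Subgroup.map_commutator]; exact Subgroup.map_mono h.der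
  cT := by
    rintro _ ⟨d, hd, rfl⟩ _ ⟨t, ht, rfl⟩
    rw [← map_mul, ← map_mul, h.cT hd t ht]
  cP := by
    rintro _ ⟨d, hd, rfl⟩ _ ⟨t, ht, rfl⟩
    rw [← map_mul, ← map_mul, h.cP hd t ht]
  sq := by
    rintro _ ⟨t, ht, rfl⟩
    exact ⟨t ^ 2, h.sq t ht, map_pow _ _ _⟩
  pow := by rw [← map_pow, h.pow, map_one]
  Pτ := by
    rw [← map_pow, ← MonoidHom.map_zpowers, ← Subgroup.map_commutator]
    exact Subgroup.map_mono h.Pτ
  TP := by
    rw [← Subgroup.map_commutator, ← Subgroup.map_commutator]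
    exact Subgroup.map_mono h.TP

theorem zpowers_subgroupOf {L : Subgroup G} {x : G} (hx : x ∈ L) :
    (zpowers x).subgroupOf L = zpowers ⟨x, hx⟩ := by
  apply Subgroup.map_injective L.subtype_injective
  rw [Subgroup.map_subgroupOf_eq_of_le (Subgroup.zpowers_le.2 hx), MonoidHom.map_zpowers]
  rfl

theorem Tri.subgroupOf (h : Tri s κ T D P b) {L : Subgroup G} (hT : T ≤ L) (hP : P ≤ L)
    (hb : b ∈ L) : Tri s κ (T.subgroupOf L) (D.subgroupOf L) (P.subgroupOf L) ⟨b, hb⟩ where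
  pT := h.pT.comap_of_injective _ L.subtype_injective
  pP := h.pP.comap_of_injective _ L.subtype_injective
  bT := Subgroup.le_normalizer_comap L.subtype h.bT
  bP := Subgroup.le_normalizer_comap L.subtype h.bP
  bD := Subgroup.le_normalizer_comap L.subtype h.bD
  PT := Core.subgroupOf_le_normalizer_subgroupOf h.PT L
  le := Subgroup.subgroupOf_mono L h.le
  der := by rw [← subgroupOf_commutator hT hT]; exact Subgroup.subgroupOf_mono L h.der
  cT := fun d hd t ht => Subtype.ext (h.cT hd t ht)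
  cP := fun d hd t ht => Subtype.ext (h.cP hd t ht)
  sq := fun t ht => h.sq t ht
  pow := Subtype.ext h.pow
  Pτ := by
    rw [show (⟨b, hb⟩ : L) ^ 2 ^ κ = ⟨b ^ 2 ^ κ, L.pow_mem hb _⟩ from rfl, ← zpowers_subgroupOf,
      ← subgroupOf_commutator hP (Subgroup.zpowers_le.2 (L.pow_mem hb _))]
    exact Subgroup.subgroupOf_mono L h.Pτ
  TP := by
    rw [← subgroupOf_commutator hP hP, ← subgroupOf_commutator hT ((der_le P).trans hP)]
    exact Subgroup.subgroupOf_mono L h.TP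

theorem Tri.pow_pow {j : ℕ} (h : Tri s (j + κ) T D P b) : Tri s κ T D P (b ^ 2 ^ j) :=
  { h with
    bT := Subgroup.pow_mem _ h.bT _
    bP := Subgroup.pow_mem _ h.bP _
    bD := Subgroup.pow_mem _ h.bD _
    pow := by rw [← pow_mul, ← pow_add, ← add_assoc, h.pow]
    Pτ := by rw [← pow_mul, ← pow_add]; exact h.Pτ }

theorem Tri.TP' (h : Tri s κ T D P b) : T ≤ ⁅T, P⁆ :=
  h.TP.trans (Subgroup.commutator_mono le_rfl (der_le P))

theorem Tri.le_cent (h : Tri s κ T D P b) {A : Subgroup G} (hT : T ≤ 𝐍(A)) (hP : P ≤ 𝐍(A))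
    (hc : zpowers (b ^ 2 ^ κ) ≤ 𝐂(A)) : P ≤ 𝐂(A) ∧ T ≤ 𝐂(A) :=
  have h1 := h.Pτ.trans (comm_le_cent_of_norm hP hc)
  ⟨h1, h.TP'.trans (comm_le_cent_of_norm hT h1)⟩

theorem Tri.le_of_comm [Finite G] (h : Tri s κ T D P b) {R : Subgroup G} (hT : T ≤ 𝐍(R))
    (hP : P ≤ 𝐍(R)) (hb : b ∈ 𝐍(R)) (hc : ⁅T, zpowers (b ^ 2 ^ κ)⁆ ≤ R) : T ≤ R :=
  h.TP'.trans ((Subgroup.commutator_mono le_rfl h.Pτ).trans (comm_comm_le hT hP
    (Subgroup.zpowers_le.2 (Subgroup.pow_mem _ hb _)) h.PT hc))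

theorem three_le {X Y Z N : Subgroup G} (hX : X ≤ 𝐍(N)) (hY : Y ≤ 𝐍(N)) (hZ : Z ≤ 𝐍(N))
    (h1 : ⁅⁅Y, Z⁆, X⁆ ≤ N) (h2 : ⁅⁅Z, X⁆, Y⁆ ≤ N) : ⁅⁅X, Y⁆, Z⁆ ≤ N := by
  rw [← quo_eq_bot_iff ((comm_le_of_le (comm_le_of_le ‹_› ‹_›) ‹_›)),
    quo_commutator (comm_le_of_le ‹_› ‹_›) ‹_›, quo_commutator ‹_› ‹_›] at h1 h2 ⊢
  exact Subgroup.commutator_commutator_eq_bot_of_rotate h1 h2

end Tri

section Top

variable {k W : Type*} [Field k] [AddCommGroup W] [Module k W] [IsAlgClosed k]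
  [FiniteDimensional k W] {s κ : ℕ}

theorem exists_sq_index {G : Type*} [Group G] [Finite G] {ρ : Representation k G W}
    {Q D : Subgroup G} (hDQ : D ≤ Q) (hQD : ⁅Q, Q⁆ ≤ D) (hDc : D ≤ 𝐂(Q))
    (hk : (Nat.card Q : k) ≠ 0) {l : D →* kˣ} (hw : wt ρ D l ≠ ⊥) (hne : ¬ ⁅Q, Q⁆ ≤ kerG l) :
    ∃ N, 2 ≤ N ∧ N ≤ finrank k (wt ρ D l) ∧ N ^ 2 = (rad Q (kerG l)).relIndex Q := by
  have hQK := norm_kerG_of_cent hDc l
  have hQl : Q ≤ stab l := (le_cent_symm hDc).trans (cent_le_stab l)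
  have hRQ := rad_le Q (kerG l)
  have hRQK := ((le_rad_iff hQK).1 (le_refl (rad Q (kerG l)))).2
  have hQR : Q ≤ 𝐍(rad Q (kerG l)) := le_norm_rad Subgroup.le_normalizer hQK
  have hinv : ∀ a ∈ rad Q (kerG l), ∀ v ∈ wt ρ _ l, ρ a v ∈ wt ρ _ l := fun a ha v hv =>
    apply_mem_wt_of_stab (hQl (hRQ ha)) hv
  have hcomm : ∀ a ∈ rad Q (kerG l), ∀ b ∈ rad Q (kerG l), ∀ v ∈ wt ρ _ l,
      ρ a (ρ b v) = ρ b (ρ a v) := fun a ha b hb v hv => by
    rw [apply_comm a b v, apply_eq_of_mem_kerG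
      (hRQK (Subgroup.commutator_mem_commutator ha (hRQ hb))) (hinv b hb _ (hinv a ha v hv))]
  obtain ⟨μ, v₀, hv₀, hv₀0, hv₀μ⟩ := exists_wt_in _ hw hinv hcomm
  have hQμ : Q ≤ stab μ := (le_stab_iff hQR).2 fun g hg =>
    mem_kerG_of_apply_eq (comm_le_left hQR hg) hv₀μ hv₀0 (apply_eq_of_mem_kerG (hRQK hg) hv₀)
  obtain ⟨U, hU, hloc⟩ := es_local' (ρ := ρ) (B := ⊥) (U₀ := wt ρ _ μ ⊓ wt ρ _ l) hDQ hQD hDc bot_le
    hk ((Submodule.ne_bot_iff _).2 ⟨v₀, ⟨hv₀μ, hv₀⟩, hv₀0⟩) inf_le_right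
    (fun g hg v hv => ⟨apply_mem_wt_of_stab (hQμ hg) hv.1, apply_mem_wt_of_stab (hQl hg) hv.2⟩)
    (fun g hg v hv => by rw [Subgroup.mem_bot.1 hg, map_one]; exact hv)
    (fun z hz => ⟨μ ⟨z, hz⟩, fun v hv => hv.1 ⟨z, hz⟩⟩) (fun e he he1 => absurd he he1) hne
  exact ⟨_, hloc.two_le, Submodule.finrank_mono (hU.trans inf_le_right),
    (hloc.cop (by simp) (by simp)).1⟩

theorem top_faithful {G : Type*} [Group G] [Finite G] {ρ : Representation k G W}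
    {T D P : Subgroup G} {b : G} (hs : s.Prime) (hs2 : s ≠ 2) (h : Tri s κ T D P b) (hκ : κ ≠ 0)
    (hk2 : (2 : k) ≠ 0) (hρ : ∀ g, ρ g = 1 → g = 1)
    (hr : finrank k W ≤ finrank k (fixSub ρ (zpowers b)) + 2) : T = ⊥ := by
  haveI : Fact (Nat.Prime 2) := ⟨Nat.prime_two⟩
  obtain ⟨a, ha⟩ := IsPGroup.iff_card.1 h.pT
  have hkT : (Nat.card T : k) ≠ 0 := by rw [ha, Nat.cast_pow]; exact pow_ne_zero _ hk2
  have hBT : zpowers b ≤ 𝐍(T) := Subgroup.zpowers_le.2 h.bT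
  by_cases hab : ⁅T, T⁆ = ⊥
  · refine le_bot_iff.1 (h.le_of_comm le_norm_bot le_norm_bot (le_norm_bot (Subgroup.mem_top b))
      (by_contra fun hc => ?_))
    obtain ⟨g, hg, hg1⟩ := exists_mem_ne_one fun e => hc e.le
    have hn := (zpowers_pow_le b (2 ^ κ)).trans hBT
    obtain ⟨l, hl, hw⟩ := exists_wt_of_comm (ρ := ρ) hkT (le_cent_iff_comm_eq_bot.2 hab)
      (comm_le_left hn hg) fun e => hg1 (hρ g e)
    have := orbit_rank hkT h.bT hκ h.pow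
      (fun e => hl ((le_stab_iff hn).1 (Subgroup.zpowers_le.2 e) hg)) hw
    omega
  exfalso
  obtain ⟨g, hg, hg1⟩ := exists_mem_ne_one hab
  obtain ⟨l, hl, hw⟩ := exists_wt_of_comm (ρ := ρ) (cast_card_ne_zero_of_le h.le hkT)
    (h.cT.trans (cent_anti h.le)) (h.der hg) fun e => hg1 (hρ g e)
  have hTK := norm_kerG_of_cent h.cT l
  have hPK := norm_kerG_of_cent h.cP l
  have hTR : T ≤ 𝐍(rad T (kerG l)) := le_norm_rad Subgroup.le_normalizer hTK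
  have hPR : P ≤ 𝐍(rad T (kerG l)) := le_norm_rad h.PT hPK
  have hDR := le_rad_of_cent h.le h.cT l
  have hne : ¬ T ≤ rad T (kerG l) := fun e => hl (((le_rad_iff hTK).1 e).2 hg)
  obtain ⟨N, hN2, hN, hN'⟩ := exists_sq_index h.le h.der h.cT hkT hw fun e => hl (e hg)
  obtain ⟨m, -, rfl⟩ := eq_pow_of_sq Nat.prime_two h.pT hN' hN2
  have hd : 8 ≤ finrank k (wt ρ D l) := by
    by_contra hlt
    have : m < 3 := (Nat.pow_lt_pow_iff_right one_lt_two).1 (by omega)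
    exact hne (h.TP.trans (small (m := m * 2) hs hs2 h.pP hTR hPR h.PT (h.der.trans hDR)
      (fun t ht => hDR (h.sq t ht)) (by rw [← hN', pow_mul]) (by omega)))
  have hinf : ∀ A B : Submodule k W, finrank k B + 2 ≥ finrank k W →
      finrank k A ≤ finrank k ↥(A ⊓ B) + 2 := fun A B hB => by
    have := Submodule.finrank_sup_add_finrank_inf_eq A B
    have := Submodule.finrank_le (A ⊔ B)
    omega
  have hex : ∀ A : Submodule k W, 0 < finrank k A → ∃ v ∈ A, v ≠ 0 := fun A hA =>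
    (Submodule.ne_bot_iff A).1 fun e => by rw [e, finrank_bot] at hA; omega
  have hbl : b ∈ stab l := by
    obtain ⟨v, hv, hv0⟩ := hex _ (show 0 < finrank k ↥(wt ρ D l ⊓ fixSub ρ (zpowers b)) by
      have := hinf (wt ρ D l) _ hr; omega)
    have h1 := apply_mem_wt ⟨b, h.bD⟩ hv.1
    rw [show ρ (⟨b, h.bD⟩ : 𝐍(D)) v = v from hv.2 b (Subgroup.mem_zpowers b)] at h1
    exact (mem_stab h.bD).2 (eq_of_mem_wt h1 hv.1 hv0)
  have hBl : zpowers b ≤ stab l := Subgroup.zpowers_le.2 hbl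
  have hBK := hBl.trans (stab_le_norm_kerG l)
  have hfix : ∀ e : G, ∃ F : Submodule k W, finrank k F + 2 ≥ finrank k W ∧
      ∀ v ∈ F, v ∈ fixSub ρ (zpowers b) → ∀ β ∈ zpowers b, ρ ⁅e, β⁆ v = v := fun e => by
    refine ⟨(fixSub ρ (zpowers b)).map (ρ e), ?_, ?_⟩
    · have := (Submodule.equivMapOfInjective (ρ e) (ρ.apply_bijective e).1
        (fixSub ρ (zpowers b))).finrank_eq
      exact hr.trans (Nat.add_le_add_right this.le 2)
    · rintro _ ⟨w, hw, rfl⟩ hv β hβ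
      rw [commutatorElement_def, map_mul, map_mul, map_mul, Module.End.mul_apply,
        Module.End.mul_apply, Module.End.mul_apply, hv _ (Subgroup.inv_mem _ hβ),
        Representation.inv_self_apply, hw β hβ]
  have hAT : ⁅T, zpowers b⁆ ≤ T := comm_le_left hBT
  have hAA : ⁅⁅T, zpowers b⁆, ⁅T, zpowers b⁆⁆ ≤ kerG l := by
    refine comm_closure_le (hAT.trans hTK) ?_
    rintro _ ⟨e, he, β, hβ, rfl⟩ y hy
    rw [← commutatorElement_inv]
    refine Subgroup.inv_mem _ (comm_closure_le (A := zpowers ⁅e, β⁆) (hAT.trans hTK) ?_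
      (Subgroup.commutator_mem_commutator hy (Subgroup.mem_zpowers _)))
    rintro _ ⟨e', he', β', hβ', rfl⟩ y hy
    obtain ⟨F, hF, hF'⟩ := hfix e
    obtain ⟨F', hG, hG'⟩ := hfix e'
    have h1 := hinf (wt ρ D l) _ hr
    have h2 := hinf (wt ρ D l ⊓ fixSub ρ (zpowers b)) _ hF
    have h3 := hinf (wt ρ D l ⊓ fixSub ρ (zpowers b) ⊓ F) _ hG
    obtain ⟨v, hv, hv0⟩ := hex (wt ρ D l ⊓ fixSub ρ (zpowers b) ⊓ F ⊓ F') (by omega)
    have h4 : v ∈ fixSub ρ (zpowers ⁅e, β⁆ ⊔ zpowers ⁅e', β'⁆ : Subgroup G) := by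
      rw [Subgroup.zpowers_eq_closure, Subgroup.zpowers_eq_closure, ← Subgroup.closure_union,
        fixSub_closure]
      rintro _ (rfl | rfl)
      exacts [hF' v hv.1.2 hv.1.1.2 β hβ, hG' v hv.2 hv.1.1.2 β' hβ']
    have h5 : y ∈ T := Subgroup.zpowers_le.2 (hAT (Subgroup.commutator_mem_commutator he hβ)) hy
    exact mem_kerG_of_apply_eq (h.der (Subgroup.commutator_mem_commutator
      (hAT (Subgroup.commutator_mem_commutator he' hβ')) h5)) hv.1.1.1 hv0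
      (h4 _ (comm_le_of_le le_sup_right le_sup_left
        (Subgroup.commutator_mem_commutator (Subgroup.mem_zpowers _) hy)))
  have hAB : ⁅⁅T, zpowers b⁆, zpowers b⁆ ≤ rad T (kerG l) := by
    refine (le_rad_iff hTK).2 ⟨comm_le_of_left_le hAT hBT, three_le (hAT.trans hTK) hBK hTK ?_ ?_⟩
    · rw [Subgroup.commutator_comm (zpowers b) T]; exact hAA
    · exact (Subgroup.commutator_mono ((Subgroup.commutator_mono le_rfl hAT).trans h.der)
        le_rfl).trans ((le_stab_iff (hBl.trans (stab_le l))).1 hBl)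
  have hBR : zpowers b ≤ 𝐍(rad T (kerG l)) := le_norm_rad hBT hBK
  refine hne (h.le_of_comm hTR hPR (hBR (Subgroup.mem_zpowers b)) ?_)
  obtain ⟨κ, rfl⟩ := Nat.exists_eq_succ_of_ne_zero hκ
  rw [Nat.succ_eq_add_one, pow_succ', pow_mul, Subgroup.commutator_comm]
  refine (Subgroup.commutator_mono (zpowers_pow_le _ _) le_rfl).trans ?_
  rw [Subgroup.zpowers_eq_closure]
  refine comm_closure_le (by
    rw [← Subgroup.zpowers_eq_closure]; exact (zpowers_pow_le _ _).trans hBR) ?_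
  rintro _ rfl t ht
  have h1 : ⁅t, b⁆ ∈ ⁅T, zpowers b⁆ :=
    Subgroup.commutator_mem_commutator ht (Subgroup.mem_zpowers b)
  rw [show ⁅b ^ 2, t⁆ = (⁅t, b⁆ ^ 2 * ⁅⁅t, b⁆⁻¹, b⁆)⁻¹ by
    simp only [commutatorElement_def, pow_two, mul_inv_rev, inv_inv, mul_assoc,
      mul_inv_cancel_left, inv_mul_cancel_left]]
  exact Subgroup.inv_mem _ (Subgroup.mul_mem _ (hDR (h.sq _ (hAT h1))) (hAB
    (Subgroup.commutator_mem_commutator (Subgroup.inv_mem _ h1) (Subgroup.mem_zpowers b))))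

theorem top {G : Type u} [Group G] [Finite G] {ρ : Representation k G W}
    {T D P : Subgroup G} {b : G} (hs : s.Prime) (hs2 : s ≠ 2) (h : Tri s κ T D P b) (hκ : κ ≠ 0)
    (hk2 : (2 : k) ≠ 0) (hr : finrank k W ≤ finrank k (fixSub ρ (zpowers b)) + 2) :
    ∀ t ∈ T, ρ t = 1 := by
  obtain ⟨G', _, _, π, ρ', -, h1, h2⟩ := exists_faithful_quot ρ
  have h3 : fixSub ρ' (zpowers (π b)) = fixSub ρ (zpowers b) := by
    rw [Subgroup.zpowers_eq_closure, Subgroup.zpowers_eq_closure, fixSub_closure, fixSub_closure]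
    ext v
    simp [mem_fixSub, h1]
  have := top_faithful hs hs2 (h.map π) hκ hk2 h2 (h3 ▸ hr)
  intro t ht
  rw [← h1, show π t = 1 from (Subgroup.map_eq_bot_iff _).1 this ht, map_one]

end Top

end Cfsg.Agent.Gross
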