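import Mathlib
import Cfsg.Agent.Gross.D

/-!
# Gross's bound `l₂ ≤ 2 e₂ - 1` on the `2`-length of a solvable group
-/

set_option autoImplicit false

namespace Cfsg.Agent.Gross

open Module Cfsg.Agent.BG Cfsg.Agent.BG.Amb Cfsg.Agent.BG.RepGlue Cfsg.Agent.BG.RepWeight
  Cfsg.Agent.BG.RepFrob Cfsg.Agent.BG.RepExtra Cfsg.Agent.BG.RepPrime Cfsg.Agent.H23.HH
open scoped commutatorElement Pointwise
open Subgroup (zpowers)

universe u

section Rep

variable {k G W : Type*} [Field k] [Group G] [AddCommGroup W] [Module k W]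

theorem resQ_pow {ρ : Representation k G W} {U : Submodule k W} {b : G} (hb : b ∈ stabU ρ U)
    (n : ℕ) (v : U) : (((resQ ρ U (QuotientGroup.mk' _ ⟨b, hb⟩) - 1) ^ n) v : W) =
      ((ρ b - 1) ^ n) v := by
  induction n with
  | zero => rfl
  | succ n ih => rw [pow_succ', pow_succ', Module.End.mul_apply, Module.End.mul_apply, ← ih]; rfl

variable [IsAlgClosed k] [Finite G] [FiniteDimensional k W] {ρ : Representation k G W} [CharP k 2]

theorem homog2 [Nontrivial W] {Q D T E P : Subgroup G} {q s κ : ℕ} (hq : q.Prime) (hs : s.Prime)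
    (hq2 : q ≠ 2) (hs2 : s ≠ 2) (hQ : IsPGroup q Q) {b : G} (h : Tri s κ T E P b)
    (hbQ : b ∈ 𝐍(Q)) (hPQ : P ≤ 𝐍(Q)) (hTQ : T ≤ 𝐍(Q)) (hDQ : D ≤ Q) (hder : ⁅Q, Q⁆ ≤ D)
    (hpow : ∀ x ∈ Q, x ^ q ∈ D) (hCD : Q ⊓ 𝐂(T) ≤ D) (hD : ∀ z ∈ D, ∃ c : k, ρ z = c • 1)
    (hne : ⁅Q, Q⁆ ≠ ⊥) (hρ : ∀ g, ρ g = 1 → g = 1)
    (h0 : (ρ b - 1) ^ (2 ^ (κ + 1) - 1) = 0) : False := by
  haveI := Fact.mk hq
  haveI : Fact (Nat.Prime 2) := ⟨Nat.prime_two⟩
  set Y := zpowers (b ^ 2 ^ κ) with hY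
  have hinj : ∀ x y, ρ x = ρ y → x = y := fun x y h => by
    have := hρ (x * y⁻¹) (by rw [map_mul, h, ← map_mul, mul_inv_cancel, map_one])
    exact mul_inv_eq_one.1 this
  have hDc : ∀ A : Subgroup G, D ≤ 𝐂(A) := fun A z hz g _ => by
    obtain ⟨c, hc⟩ := hD z hz
    exact hinj _ _ (by rw [map_mul, map_mul, hc]; simp)
  have hTnc : ¬ T ≤ 𝐂(Q) := fun h => hne (le_cent_iff_comm_eq_bot.1
    (((le_inf le_rfl (le_cent_symm h)).trans hCD).trans (hDc Q)))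
  have hB : zpowers b ≤ 𝐍(Q) := Subgroup.zpowers_le.2 hbQ
  have hYB : Y ≤ zpowers b := zpowers_pow_le b _
  have hYnc : ¬ Y ≤ 𝐂(Q) := fun e => hTnc (h.le_cent hTQ hPQ e).2
  have hx : orderOf b = 2 ^ (κ + 1) := orderOf_eq_prime_pow
    (fun h => hYnc (by rw [hY, h, Subgroup.zpowers_one_eq_bot]; exact bot_le)) h.pow
  have hω := omega_le Nat.prime_two hx (Nat.le_add_left 1 κ)
  obtain ⟨a, ha⟩ := IsPGroup.iff_card.1 hQ
  have hkQ : (Nat.card Q : k) ≠ 0 := cast_card_ne_zero hq hq2 hQ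
  have hcB : Nat.card (zpowers b) = 2 ^ (κ + 1) := by rw [Nat.card_zpowers, hx]
  have hcop : (Nat.card Q).Coprime (Nat.card (zpowers b)) := by
    rw [ha, hcB]; exact ((Nat.coprime_primes hq Nat.prime_two).2 hq2).pow _ _
  have hcopY := Core.coprime_of_le_right hcop hYB
  have hsQ := solvable_of_isPGroup hQ
  have hZ : Q ⊓ 𝐂(Q) ≤ D := by
    have h1 : ⁅Q ⊓ 𝐂(Q), Y⁆ = ⊥ := (Subgroup.eq_bot_iff_forall _).2 fun g hg => hρ g
      (LinearMap.ext fun v => comm_trivial (ρ := ρ) (U := ⊤)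
        (cast_card_ne_zero_of_le inf_le_left hkQ) (le_norm_inf_cent hB hB) hω
        (fun _ _ _ _ => Submodule.mem_top) (fun x hx y hy v _ => by
          rw [← Module.End.mul_apply, ← Module.End.mul_apply, ← map_mul, ← map_mul,
            hy.2 x hx.1]) (fun v _ => by rw [nm_zpowers_char hx, h0, LinearMap.zero_apply]) g hg v
          Submodule.mem_top)
    exact (le_inf inf_le_left (le_cent_symm (h.le_cent (le_norm_inf_cent hTQ hTQ)
      (le_norm_inf_cent hPQ hPQ) (le_cent_iff_comm_eq_bot'.2 h1)).2)).trans hCD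
  set Q₁ : Subgroup G := ⁅Q, Y⁆ ⊔ D with hQ₁
  have hQ₁Q : Q₁ ≤ Q := sup_le (comm_le_left (hYB.trans hB)) hDQ
  have hBQ₁ : zpowers b ≤ 𝐍(Q₁) := le_norm_sup (le_norm_comm hB (zpowers_norm_pow b _))
    (le_norm_of_le_cent (le_cent_symm (hDc _)))
  have h12 : Q₁ ≤ 𝐂(Q ⊓ 𝐂(Y)) := sup_le (le_cent_iff_comm_eq_bot.2 (le_bot_iff.1
    (comm_comm_cent_le le_norm_bot le_norm_bot
      (le_cent_iff_comm_eq_bot.1 (hder.trans (hDc Y))).le))) (hDc _)
  have hsup := coprime_comm_sup_cent (hYB.trans hB) hcopY (Or.inr hsQ)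
  have hZ₁ : Q₁ ⊓ 𝐂(Q₁) ≤ D := by
    refine le_trans (le_inf (inf_le_left.trans hQ₁Q) ?_) hZ
    rw [← hsup]
    exact le_cent_sup (inf_le_right.trans (cent_anti le_sup_left)) (inf_le_left.trans h12)
  have hnle : ¬ Q₁ ≤ D := fun h => hYnc (coprime_le_cent_of_comm_le_cent (hYB.trans hB) hcopY
    ((le_sup_left.trans h).trans (hDc Y)))
  have hder₁ : ⁅Q₁, Q₁⁆ ≤ D := (der_mono hQ₁Q).trans hder
  have hloc : ∀ U₀ : Submodule k W, U₀ ≠ ⊥ → (∀ g ∈ Q₁, ∀ v ∈ U₀, ρ g v ∈ U₀) →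
      (∀ g ∈ zpowers b, ∀ v ∈ U₀, ρ g v ∈ U₀) → ∃ U ≤ U₀, Loc ρ Q₁ D (zpowers b) U := by
    intro U₀ h0 h1 h2
    obtain ⟨U, hU, hU0, hinv, hmin⟩ := exists_minimal_invariant
      ((fun g => ρ g) '' ((Q₁ : Set G) ∪ zpowers b)) U₀ h0 (by
        rintro _ ⟨g, hg, rfl⟩; exact hg.elim (h1 g) (h2 g))
    refine ⟨U, hU, hU0, fun g hg => hinv _ ⟨g, .inl hg, rfl⟩, fun g hg => hinv _ ⟨g, .inr hg, rfl⟩,
      le_sup_right, hnle, le_norm_of_le_cent (le_cent_symm (hDc _)), hBQ₁, fun z hz => ?_,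
      fun x hx y hy => hder₁ (Subgroup.commutator_mem_commutator hx hy), fun g hg hc => ?_,
      fun e he he1 => ?_, cast_card_ne_zero_of_le hQ₁Q hkQ,
      fun N hN h3 h4 => hmin N hN (by rintro _ ⟨g, hg, rfl⟩; exact hg.elim (h3 g) (h4 g))⟩
    · obtain ⟨c, hc⟩ := hD z hz
      exact ⟨c, fun v _ => by rw [hc]; rfl⟩
    · refine hZ₁ ⟨hg, fun y hy => ?_⟩
      obtain ⟨c, hc'⟩ := hD _ (hder₁ (Subgroup.commutator_mem_commutator hy hg))
      obtain ⟨v, hv, hv0⟩ := (Submodule.ne_bot_iff U).1 hU0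
      have h3 := apply_comm (ρ := ρ) y g v
      rw [hc y hy v hv, hc'] at h3
      have h4 : c = 1 := by
        have h5 : ρ g (ρ y v) ≠ 0 := apply_ne_zero _ (apply_ne_zero _ hv0)
        exact smul_left_injective k h5 (show c • _ = (1 : k) • _ by rw [one_smul]; exact h3.symm)
      rw [h4, one_smul] at hc'
      exact commutatorElement_eq_one_iff_mul_comm.1 (hρ _ hc')
    · refine comm_surj' le_sup_right hder₁ (hBQ₁ he) (sup_le_sup_right ?_ _)
      rw [← coprime_comm_comm (hYB.trans hB) hcopY (Or.inr hsQ)]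
      exact Subgroup.commutator_mono le_sup_left (hω e he he1)
  obtain ⟨U, -, hl⟩ := hloc ⊤ top_ne_bot (fun _ _ _ _ => Submodule.mem_top)
    fun _ _ _ _ => Submodule.mem_top
  obtain ⟨h1, h2, -⟩ := hl.modular' hx fun v _ => by
    rw [nm_zpowers_char hx, h0, LinearMap.zero_apply]
  obtain ⟨m, hm, h3⟩ := eq_pow_of_sq hq (hQ.to_le hQ₁Q) h1 hl.two_le
  obtain rfl := mersenne_exp hq hq2 hm (h3 ▸ h2)
  have hκ : κ ≠ 0 := by
    rintro rfl
    have := hl.two_le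
    omega
  have hCY : Q ⊓ 𝐂(Y) = Q ⊓ 𝐂(zpowers b) := by
    refine le_antisymm (fun y hy => ⟨hy.1, fun e he => hinj _ _ ?_⟩)
      (inf_le_inf_left _ (cent_anti hYB))
    have := fix_commutant_mod hx (hBQ₁ (Subgroup.mem_zpowers b)) h0 hloc (x := ρ y)
      (mem_fixSub_conjRep.2 fun g hg => by rw [← map_mul, ← map_mul, h12 hg y hy])
    rw [map_mul, map_mul]
    exact mem_fixSub_conjRep.1 this e he
  haveI : D.Normal := ⟨fun z hz g => by
    rwa [hDc ⊤ hz g (Subgroup.mem_top g), mul_inv_cancel_right]⟩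
  let π := QuotientGroup.mk' D
  have hV : IsElementaryAbelian q (Q.map π) := by
    refine ⟨der_eq_bot_iff.1 ?_, ?_⟩
    · rw [← Subgroup.map_commutator, Subgroup.map_eq_bot_iff, QuotientGroup.ker_mk']
      exact hder
    · rintro _ ⟨x, hx, rfl⟩
      exact (map_pow π x q).symm.trans ((QuotientGroup.eq_one_iff _).2 (hpow x hx))
  let L : Subgroup G := 𝐍(Q)
  obtain ⟨n, ρ', hn, hc, hk⟩ := exists_rep hV (π.comp L.subtype)
    (fun g => Core.map_le_normalizer_map le_rfl π ⟨g, g.2, rfl⟩) (AlgebraicClosure (ZMod q))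
  let b' : L := ⟨b, hbQ⟩
  have e1 := hc (zpowers b')
  rw [show π.comp L.subtype '' (zpowers b' : Set L) = ((zpowers b).map π : Subgroup _) by
    rw [← Subgroup.coe_map, MonoidHom.map_zpowers, MonoidHom.map_zpowers]; rfl,
    map_inf_cent π hB hcop (.inr hsQ), ← hCY] at e1
  have e2 : Nat.card (Q.map π) ∣ Nat.card (Q₁.map π) * Nat.card ((Q ⊓ 𝐂(Y)).map π) := by
    have e3 : Q = Q₁ ⊔ Q ⊓ 𝐂(Y) :=
      le_antisymm (hsup.ge.trans (sup_le_sup_right le_sup_left _)) (sup_le hQ₁Q inf_le_left)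
    conv_lhs => rw [e3, Subgroup.map_sup]
    exact Core.card_sup_dvd (Core.map_le_normalizer_map (le_norm_of_le_cent (le_cent_symm h12)) π)
  rw [hn, e1, ← Core.relIndex_eq_card_map_mk', ← h1, h3, pow_one, ← pow_add,
    Nat.pow_dvd_pow_iff_le_right hq.one_lt] at e2
  have h4 := top (ρ := ρ') hs hs2 (h.subgroupOf hTQ hPQ hbQ) hκ (by
    have : ((2 : ℕ) : AlgebraicClosure (ZMod q)) ≠ 0 := by
      rw [Ne, CharP.cast_eq_zero_iff _ q]
      exact fun h' => hq2 ((Nat.prime_dvd_prime_iff_eq hq Nat.prime_two).1 h')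
    exact_mod_cast this) (by rw [Module.finrank_fin_fun, add_comm]; exact e2)
  obtain ⟨a', ha'⟩ := IsPGroup.iff_card.1 h.pT
  refine hTnc (coprime_le_cent_of_comm_le_cent hTQ (by
    rw [ha, ha']; exact ((Nat.coprime_primes hq Nat.prime_two).2 hq2).pow _ _) (le_trans ?_ (hDc T)))
  rw [← QuotientGroup.ker_mk' D, ← Subgroup.map_eq_bot_iff, Subgroup.map_commutator,
    ← le_cent_iff_comm_eq_bot']
  rintro _ ⟨g, hg, rfl⟩
  exact (hk ⟨g, hTQ hg⟩).1 (h4 _ hg)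

theorem core2 (hs : Group.IsSolvable G) (hO : pCore 2 G = ⊥) (hρ : ∀ g, ρ g = 1 → g = 1)
    {T E P : Subgroup G} {s n : ℕ} (hsp : s.Prime) (hs2 : s ≠ 2) {x : G} (h : Tri s n T E P x)
    (h0 : (ρ x - 1) ^ (2 ^ (n + 1) - 1) = 0) : T = ⊥ := by
  haveI : Fact (Nat.Prime 2) := ⟨Nat.prime_two⟩
  by_contra hT
  obtain ⟨q, hq, hc⟩ : ∃ q : ℕ, q.Prime ∧ ¬ piCoreOf {q} (⊤ : Subgroup G) ≤ 𝐂(T) := by
    by_contra! hc
    have h1 := le_cent_symm (fittingOf_le_of_forall_piCoreOf fun q hq _ => hc q hq)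
    exact ne_of_piCoreOf_ne_bot Nat.prime_two hO (ne_bot_mono hT (le_piCoreOf_of_le_fittingOf
      ((le_inf le_top h1).trans (cent_fittingOf_le inferInstance)) (isPGroup_iff_pi.1 h.pT))) rfl
  haveI := Fact.mk hq
  have hq2 : q ≠ 2 := ne_of_piCoreOf_ne_bot (G := ⊤) hq hO fun e => hc (e.le.trans bot_le)
  obtain ⟨Q, hQH, hmin⟩ := exists_minAct (T := T ⊔ P ⊔ zpowers x)
    (le_norm_piCoreOf_of _ Subgroup.le_normalizer_of_normal) (le_sup_left.trans le_sup_left)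
    (sup_le (sup_le Subgroup.le_normalizer h.PT) (Subgroup.zpowers_le.2 h.bT))
    (pi_coprime (piCoreOf_pi {q} ⊤) (pi_of_isPGroup h.pT (Ne.symm hq2)))
    (solvable_of_isPGroup (piCoreOf_isPGroup ⊤)) hc
  have hQ : IsPGroup q Q := (piCoreOf_isPGroup ⊤).to_le hQH
  have hkQ : (Nat.card Q : k) ≠ 0 := cast_card_ne_zero hq hq2 hQ
  have hx : orderOf x = 2 ^ (n + 1) := orderOf_eq_prime_pow (fun e => hT (le_bot_iff.1
    (h.le_of_comm le_norm_bot le_norm_bot (le_norm_bot (Subgroup.mem_top x)) (by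
      rw [e, Subgroup.zpowers_one_eq_bot, Subgroup.commutator_bot_right])))) h.pow
  have hnm : ∀ v, nm ρ (zpowers x) v = 0 := fun v => by
    rw [nm_zpowers_char hx, h0, LinearMap.zero_apply]
  have hω := omega_le Nat.prime_two hx (Nat.le_add_left 1 n)
  have hab : ∀ A ≤ Q, A ≤ 𝐂(A) → T ⊔ P ⊔ zpowers x ≤ 𝐍(A) → P ≤ 𝐂(A) ∧ T ≤ 𝐂(A) := by
    intro A hA hAc hn
    refine h.le_cent ((le_sup_left.trans le_sup_left).trans hn)
      ((le_sup_right.trans le_sup_left).trans hn) (le_cent_iff_comm_eq_bot'.2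
      ((Subgroup.eq_bot_iff_forall _).2 fun g hg => hρ g (LinearMap.ext fun v => ?_)))
    exact comm_trivial (ρ := ρ) (U := ⊤) (cast_card_ne_zero_of_le hA hkQ) (le_sup_right.trans hn) hω
      (fun _ _ _ _ => Submodule.mem_top) (fun a ha b hb v _ => by
        rw [← Module.End.mul_apply, ← Module.End.mul_apply, ← map_mul, ← map_mul, hAc hb a ha])
      (fun v _ => hnm v) g hg v Submodule.mem_top
  have hAQ : zpowers x ≤ 𝐍(Q) := le_sup_right.trans hmin.norm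
  have hPQ : P ≤ 𝐍(Q) := (le_sup_right.trans le_sup_left).trans hmin.norm
  obtain ⟨g, hg, hg1⟩ := exists_mem_ne_one (H := ⁅Q, Q⁆) fun e =>
    hmin.nle (le_cent_symm (hab Q le_rfl (le_cent_iff_comm_eq_bot.2 e) hmin.norm).2)
  set D := Q ⊓ 𝐂(T) with hD
  have hkD : (Nat.card D : k) ≠ 0 := cast_card_ne_zero_of_le inf_le_left hkQ
  have hDD : D ≤ 𝐂(D) := hmin.D_le_cent.trans (cent_anti inf_le_left)
  obtain ⟨l, hl, hwt⟩ := exists_wt_of_comm (ρ := ρ) hkD hDD (hmin.der_le hg)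
    fun h => hg1 (hρ g h)
  have hAD : zpowers x ≤ 𝐍(D) := le_sup_right.trans hmin.normD
  obtain ⟨j, hj, hjl⟩ := exists_eq_zpowers_pow Nat.prime_two hx
    (inf_le_left : zpowers x ⊓ stab l ≤ _)
  obtain ⟨v, hv, hv0⟩ := (Submodule.ne_bot_iff _).1 hwt
  have hjn : j ≤ n := by
    by_contra hlt
    obtain rfl : j = n + 1 := by omega
    refine inf_stab_ne_bot hkD hAD hv hv0 (hnm v) ?_
    rw [hjl, ← hx, pow_orderOf_eq_one, Subgroup.zpowers_one_eq_bot]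
  obtain ⟨κ, rfl⟩ : ∃ κ, n = j + κ := ⟨n - j, by omega⟩
  set U := wt ρ D l
  have hst : stab l ≤ stabU ρ U := stab_le_stabU l
  have hQU : Q ≤ stabU ρ U := ((le_cent_symm hmin.D_le_cent).trans (cent_le_stab l)).trans hst
  have hTU : T ≤ stabU ρ U := ((le_cent_symm inf_le_right).trans (cent_le_stab l)).trans hst
  have hPU : P ≤ stabU ρ U :=
    ((hab D inf_le_left hDD hmin.normD).1.trans (cent_le_stab l)).trans hst
  have hBU : zpowers (x ^ 2 ^ j) ≤ stabU ρ U := (hjl.ge.trans inf_le_right).trans hst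
  have hb : x ^ 2 ^ j ∈ stabU ρ U := hBU (Subgroup.mem_zpowers _)
  haveI : Nontrivial U := Submodule.nontrivial_iff_ne_bot.2 hwt
  refine homog2 (ρ := resQ ρ U) (Q := imQ ρ U Q) (D := imQ ρ U D) hq hsp hq2 hs2 (isPGroup_imQ hQ)
    ((h.pow_pow.subgroupOf hTU hPU hb).map (QuotientGroup.mk' _)) ?_ (imQ_norm hPQ)
    (imQ_norm hmin.normQ) (imQ_mono inf_le_left) (imQ_comm hQU hQU ▸ imQ_mono hmin.der_le) ?_ ?_ ?_
    ?_ resQ_faithful ?_
  · have := imQ_norm (ρ := ρ) (U := U) ((zpowers_pow_le x (2 ^ j)).trans hAQ)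
    rw [imQ_zpowers hb] at this
    exact this (Subgroup.mem_zpowers _)
  · rintro _ ⟨y, hy, rfl⟩
    exact ⟨y ^ q, hmin.pow_mem hq hQ y hy, map_pow _ _ _⟩
  · rw [imQ, imQ, map_inf_cent _ (Core.subgroupOf_le_normalizer_subgroupOf hmin.normQ _) (by
      rw [Core.card_subgroupOf_of_le hQU, Core.card_subgroupOf_of_le hTU]; exact hmin.cop)
      (.inr (solvable_of_isPGroup (hQ.comap_of_injective _ (stabU ρ U).subtype_injective))),
      inf_cent_subgroupOf hTU]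
  · rintro _ ⟨z, hz, rfl⟩
    exact ⟨l ⟨z, hz⟩, LinearMap.ext fun w => Subtype.ext (mem_wt.1 w.2 ⟨z, hz⟩)⟩
  · rw [← imQ_comm hQU hQU, Ne, imQ_eq_bot_iff ((der_le Q).trans hQU)]
    exact fun h => hl (inf_kerU_le le_rfl hwt ⟨hmin.der_le hg, h hg⟩)
  · refine LinearMap.ext fun w => Subtype.ext ?_
    have h1 := orderOf_pow_pow Nat.prime_two hx hj
    rw [show j + κ + 1 - j = κ + 1 by omega] at h1
    rw [resQ_pow, ← nm_zpowers_char h1, ← hjl]
    exact nm_stab hkD hAD w.2 (hnm w)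

end Rep

theorem exists_lift_pair {G Y : Type*} [Group G] [Finite G] [Group Y] {f : G →* Y}
    (hf : Function.Surjective f) {s p : ℕ} [Fact s.Prime] [Fact p.Prime] {P₀ : Subgroup Y}
    (hP : IsPGroup s P₀) {y : Y} (hy : IsPGroup p (zpowers y)) (hyP : y ∈ 𝐍(P₀)) :
    ∃ (P : Subgroup G) (x : G), IsPGroup s P ∧ IsPGroup p (zpowers x) ∧ x ∈ 𝐍(P) ∧
      P.map f = P₀ ∧ f x = y := by
  obtain ⟨P, hS⟩ := Core.exists_isSylowOf s (P₀.comap f)
  have h1 := hS.map f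
  rw [Subgroup.map_comap_eq_self_of_surjective hf] at h1
  have h2 := h1.eq_of_le hP le_rfl h1.le
  obtain ⟨g, rfl⟩ := hf y
  obtain ⟨m, hm, hmg⟩ := hS.exists_mul_normalizer (g := g) (Subgroup.le_normalizer_comap f hyP)
  obtain ⟨a, ha, ham⟩ : f m ∈ P.map f := h2 ▸ hm
  let f' := f.comp (𝐍(P)).subtype
  obtain ⟨i, hi⟩ := isPGroup_zpowers_iff.1 hy
  obtain ⟨x, hx, hxy⟩ := exists_lift_pElem (p := p) f'.rangeRestrict_surjective
    (y := ⟨f g, ⟨a * (m⁻¹ * g), Subgroup.mul_mem _ (Subgroup.le_normalizer ha) hmg⟩, by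
      simp [f', ham]⟩) (isPGroup_zpowers_iff.2 ⟨i, Subtype.ext hi⟩)
  obtain ⟨j, hj⟩ := isPGroup_zpowers_iff.1 hx
  exact ⟨P, x, hS.isPGroup, isPGroup_zpowers_iff.2 ⟨j, congrArg Subtype.val hj⟩, x.2, h2,
    congrArg Subtype.val hxy⟩

theorem low' {G : Type*} [Group G] [Finite G] {T D P : Subgroup G} {s e : ℕ} (hs : s.Prime)
    (hs2 : s ≠ 2) (hP : IsPGroup s P) {x : G} (hxP : x ∈ 𝐍(P)) (hxT : x ∈ 𝐍(T)) (hxD : x ∈ 𝐍(D))
    (hPT : P ≤ 𝐍(T)) (hPD : P ≤ 𝐍(D)) (hDT : D ≤ T) (hx : orderOf x = 2 ^ (e + 1))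
    (hder : ⁅T, T⁆ ≤ D) (hsq : ∀ t ∈ T, t ^ 2 ∈ D) (hexp : ∀ t ∈ T, (t * x) ^ 2 ^ (e + 1) = 1)
    (h : ⁅T, ⁅P, P⁆⁆ ≤ D) : ⁅T, ⁅P, zpowers (x ^ 2 ^ e)⁆⁆ ≤ D := by
  obtain ⟨L, hL⟩ : ∃ L : Subgroup G, L = 𝐍(T) ⊓ 𝐍(D) := ⟨_, rfl⟩
  have hTL : T ≤ L := hL ▸ le_inf Subgroup.le_normalizer (le_norm_of_der_le hder hDT)
  have hPL : P ≤ L := hL ▸ le_inf hPT hPD
  have hxL : x ∈ L := hL ▸ ⟨hxT, hxD⟩
  have hYL : zpowers (x ^ 2 ^ e) ≤ L := Subgroup.zpowers_le.2 (L.pow_mem hxL _)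
  haveI : (T.subgroupOf L).Normal := Subgroup.normal_subgroupOf_of_le_normalizer (hL ▸ inf_le_left)
  haveI : (D.subgroupOf L).Normal := Subgroup.normal_subgroupOf_of_le_normalizer (hL ▸ inf_le_right)
  have h1 := low (T := T.subgroupOf L) (D := D.subgroupOf L) (P := P.subgroupOf L) (e := e) hs hs2
    (hP.comap_of_injective _ L.subtype_injective) (x := ⟨x, hxL⟩)
    (Subgroup.le_normalizer_comap L.subtype hxP) (by rw [Subgroup.orderOf_mk, hx])
    (by rw [← QuoApi.subgroupOf_commutator hTL hTL]; exact Subgroup.subgroupOf_mono L hder)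
    (fun t ht => hsq t ht) (fun t ht => Subtype.ext (hexp t ht))
    (by
      rw [← QuoApi.subgroupOf_commutator hPL hPL,
        ← QuoApi.subgroupOf_commutator hTL ((der_le P).trans hPL)]
      exact Subgroup.subgroupOf_mono L h)
  rw [show (⟨x, hxL⟩ : L) ^ 2 ^ e = ⟨x ^ 2 ^ e, L.pow_mem hxL _⟩ from rfl, ← zpowers_subgroupOf,
    ← QuoApi.subgroupOf_commutator hPL hYL,
    ← QuoApi.subgroupOf_commutator hTL (comm_le_of_le hPL hYL)] at h1
  exact fun t ht => h1 (x := ⟨t, comm_le_of_le hTL (comm_le_of_le hPL hYL) ht⟩) ht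

theorem star_aux {k G W : Type*} [Field k] [Group G] [AddCommGroup W] [Module k W] [IsAlgClosed k]
    [Finite G] [FiniteDimensional k W] {ρ : Representation k G W} [CharP k 2]
    (hs : Group.IsSolvable G) (hO : pCore 2 G = ⊥) (hρ : ∀ g, ρ g = 1 → g = 1) {e : ℕ}
    (he : PExp 2 (e + 1) G) {x : G} (hx : IsPGroup 2 (zpowers x))
    (h0 : (ρ x - 1) ^ (2 ^ (e + 1) - 1) = 0) {T₀ S : Subgroup G} {s : ℕ} (hsp : s.Prime)
    (hs2 : s ≠ 2) (hT₀ : IsPGroup 2 T₀) (hS : IsPGroup s S) (hST : S ≤ 𝐍(T₀))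
    (hxT : zpowers x ≤ 𝐍(T₀)) (hxS : zpowers x ≤ 𝐍(S)) : T₀ ≤ 𝐂(⁅S, zpowers (x ^ 2 ^ e)⁆) := by
  haveI : Fact (Nat.Prime 2) := ⟨Nat.prime_two⟩
  haveI := Fact.mk hsp
  by_contra hc
  have hy1 : x ^ 2 ^ e ≠ 1 := fun e => hc (by
    rw [e, Subgroup.zpowers_one_eq_bot, Subgroup.commutator_bot_right, cent_bot]; exact le_top)
  set Y := zpowers (x ^ 2 ^ e) with hY
  have hYA : Y ≤ zpowers x := zpowers_pow_le x _
  set P : Subgroup G := ⁅S, Y⁆ with hP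
  have hPS : P ≤ S := comm_le_left (hYA.trans hxS)
  have hPp : IsPGroup s P := hS.to_le hPS
  have hAP : zpowers x ≤ 𝐍(P) := le_norm_comm hxS (zpowers_norm_pow x _)
  have hPτ : P ≤ ⁅P, Y⁆ := (coprime_comm_comm (hYA.trans hxS)
    (IsPGroup.coprime_card_of_ne s 2 hs2 _ _ hS (hx.to_le hYA))
    (.inr (solvable_of_isPGroup hS))).ge
  obtain ⟨T, hTT, hmin⟩ := exists_minAct (T := P ⊔ zpowers x) (sup_le (hPS.trans hST) hxT)
    le_sup_left (sup_le Subgroup.le_normalizer hAP)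
    (IsPGroup.coprime_card_of_ne 2 s hs2.symm _ _ hT₀ hPp) (solvable_of_isPGroup hT₀) hc
  have hT : IsPGroup 2 T := hT₀.to_le hTT
  have hx1 := he x hx
  have hxT' : zpowers x ≤ 𝐍(T) := le_sup_right.trans hmin.norm
  have hxD : zpowers x ≤ 𝐍(T ⊓ 𝐂(P)) := le_sup_right.trans hmin.normD
  rcases hmin.eq_or_le (comm_le_left ((der_le P).trans hmin.normQ))
    (le_norm_comm hmin.norm (le_norm_comm hmin.normY hmin.normY)) with h | h
  · exact hmin.ne_bot (core2 hs hO hρ hsp hs2 ⟨hT, hPp, hxT' (Subgroup.mem_zpowers x),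
      hAP (Subgroup.mem_zpowers x), hxD (Subgroup.mem_zpowers x), hmin.normQ, inf_le_left,
      hmin.der_le, hmin.D_le_cent, inf_le_right, hmin.pow_mem Nat.prime_two hT, hx1, hPτ, h.ge⟩
      h0)
  refine hmin.D_lt.not_ge (hmin.comm_eq.ge.trans ((Subgroup.commutator_mono le_rfl hPτ).trans
    (low' hsp hs2 hPp (hAP (Subgroup.mem_zpowers x)) (hxT' (Subgroup.mem_zpowers x))
      (hxD (Subgroup.mem_zpowers x)) hmin.normQ (le_sup_left.trans hmin.normD) inf_le_left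
      (orderOf_eq_prime_pow hy1 hx1) hmin.der_le (hmin.pow_mem Nat.prime_two hT) (fun t ht => ?_)
      h)))
  exact he _ ((IsPGroup.to_sup_of_normal_left' hT hx hxT').to_le
    (Subgroup.zpowers_le.2 (Subgroup.mul_mem_sup ht (Subgroup.mem_zpowers x))))

theorem star {k G W : Type*} [Field k] [Group G] [AddCommGroup W] [Module k W] [IsAlgClosed k]
    [Finite G] [FiniteDimensional k W] {ρ : Representation k G W} [CharP k 2]
    (hs : Group.IsSolvable G) (hO : pCore 2 G = ⊥) (hρ : ∀ g, ρ g = 1 → g = 1) {e : ℕ}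
    (he : PExp 2 (e + 1) G)
    (h0 : ∀ x, IsPGroup 2 (zpowers x) → (ρ x - 1) ^ (2 ^ (e + 1) - 1) = 0) :
    PExp 2 e (G ⧸ pPrimePCore 2 G) := by
  haveI : Fact (Nat.Prime 2) := ⟨Nat.prime_two⟩
  intro y hy
  by_contra hy1
  let π := QuotientGroup.mk' (pPrimePCore 2 G)
  obtain ⟨s, hsp, hs2, P₀, -, hP₀, hm₀⟩ := exists_minAct_pSolvable
    (Core.isPSolvable_of_solvable 2 inferInstance) (Core.pCore_quotient_pPrimePCore 2) hy
    (zpowers_pow_le y (2 ^ e)) (zpowers_norm_pow y _) (by rwa [Ne, Subgroup.zpowers_eq_bot])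
  haveI := Fact.mk hsp
  obtain ⟨T₀, hT₀⟩ := Core.exists_isSylowOf 2 (pPrimePCore 2 G)
  have hsur : Function.Surjective (π.comp (𝐍(T₀)).subtype) := by
    rw [← MonoidHom.range_eq_top, MonoidHom.range_comp, Subgroup.range_subtype,
      ← Core.map_mk'_sup_left, hT₀.frattini_top]
    exact Subgroup.map_top_of_surjective _ (QuotientGroup.mk'_surjective _)
  obtain ⟨P₁, x₁, hP₁, hx₁, hxP, hP₁₀, rfl⟩ := exists_lift_pair hsur hP₀ hy
    (hm₀.norm (Subgroup.mem_zpowers y))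
  rw [← Subgroup.map_map] at hP₁₀
  have hS := hP₁.map (𝐍(T₀)).subtype
  have hST : P₁.map (𝐍(T₀)).subtype ≤ 𝐍(T₀) := Subgroup.map_subtype_le _
  have hxS : zpowers (x₁ : G) ≤ 𝐍(P₁.map (𝐍(T₀)).subtype) :=
    Subgroup.zpowers_le.2 (Subgroup.le_normalizer_map _ ⟨x₁, hxP, rfl⟩)
  have hx : IsPGroup 2 (zpowers (x₁ : G)) := MonoidHom.map_zpowers (𝐍(T₀)).subtype x₁ ▸ hx₁.map _
  have hxT : zpowers (x₁ : G) ≤ 𝐍(T₀) := Subgroup.zpowers_le.2 x₁.2
  have h1 := (le_cent_symm (star_aux hs hO hρ he hx (h0 _ hx) hsp hs2 hT₀.isPGroup hS hST hxT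
    hxS)).trans (Core.IsPConstrained.centralizer_le (Core.isPConstrained_of_solvable 2 hs) hT₀)
  rw [← QuotientGroup.ker_mk' (pPrimePCore 2 G), ← Subgroup.map_eq_bot_iff, Subgroup.map_commutator,
    hP₁₀, MonoidHom.map_zpowers, map_pow] at h1
  exact hm₀.ne_bot (hm₀.comm_eq.symm.trans h1)

/-- Gross's bound on the `2`-length. -/
theorem gross_length (e : ℕ) : ∀ {G : Type u} [Group G] [Finite G], Group.IsSolvable G →
    PExp 2 (e + 1) G → PLengthLE 2 (2 * e + 1) G := by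
  haveI : Fact (Nat.Prime 2) := ⟨Nat.prime_two⟩
  induction e with
  | zero =>
    intro G _ _ hs he
    obtain ⟨G', _, _, π, hπ, hr, hc⟩ := exists_red (p := 2) (Core.isPSolvable_of_solvable 2 hs)
    refine plength_succ_of_red hπ hc (Core.pLengthLE_zero_iff.2 (PExp.coprime fun y hy => ?_))
    obtain ⟨n, ρ, ι, hl, hf⟩ := hr.exists_lin
    have hker := QuotientGroup.ker_mk' (pCore 2 G')
    obtain ⟨y, rfl⟩ := QuotientGroup.mk'_surjective _ y
    have := Lin.pow_eq_zero (by rwa [hker]) (by rw [hker]; exact Core.pCore_isPGroup 2)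
      (he.of_surj hπ) hy
    exact (pow_one _).trans (hf _ (sub_eq_zero.1 ((pow_one _).symm.trans this)))
  | succ e ih =>
    intro G _ _ hs he
    obtain ⟨G', _, _, π, hπ, hr, hc⟩ := exists_red (p := 2) (Core.isPSolvable_of_solvable 2 hs)
    have he' := he.of_surj hπ
    haveI : Group.IsSolvable G' := solvable_of_surjective hπ
    obtain ⟨n, ρ, ι, hl, hf⟩ := hr.exists_lin
    have hker := QuotientGroup.ker_mk' (pCore 2 G')
    refine plength_succ_of_red (k := 2 * e + 1 + 1) hπ hc (plength_succ_of_surj _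
      (QuotientGroup.mk'_surjective _) (QuotientGroup.ker_mk' _).le (ih inferInstance
      (star inferInstance (Core.pCore_quotient_pCore 2) hf
        (he'.of_surj (QuotientGroup.mk'_surjective _)) fun y hy => ?_)))
    obtain ⟨y, rfl⟩ := QuotientGroup.mk'_surjective _ y
    exact Lin.pow_eq_zero (by rwa [hker]) (by rw [hker]; exact Core.pCore_isPGroup 2) he' hy

end Cfsg.Agent.Gross
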